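import Mathlib

/-!
# Field-extension subgroups of `GL(V)`: basic tools

Square-zero units, the predicate `IsIn`, functionals over a field extension, and two facts on
finite field extensions of prime degree.
-/

set_option autoImplicit false

namespace Cfsg.Agent.Lib.Classical.Spread

open Module

section Ring
variable {R : Type*} [Ring R]

/-- `1 + β` as a unit, when `β² = 0`. -/
def sqU (β : R) (h : β * β = 0) : Rˣ where
  val := 1 + β
  inv := 1 - β
  val_inv := by
    have : (1 + β) * (1 - β) = 1 - β * β := by noncomm_ring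
    rw [this, h, sub_zero]
  inv_val := by
    have : (1 - β) * (1 + β) = 1 - β * β := by noncomm_ring
    rw [this, h, sub_zero]

@[simp] theorem sqU_val (β : R) (h : β * β = 0) : (sqU β h : R) = 1 + β := rfl

@[simp] theorem sqU_inv_val (β : R) (h : β * β = 0) : (((sqU β h)⁻¹ : Rˣ) : R) = 1 - β := rfl

/-- `1 + β ∈ M` with `β² = 0`. -/
def IsIn (M : Subgroup Rˣ) (β : R) : Prop := ∃ h : β * β = 0, sqU β h ∈ M

theorem isIn_zero (M : Subgroup Rˣ) : IsIn M (0 : R) :=
  ⟨by simp, by
    have : sqU (0 : R) (by simp) = 1 := Units.ext (by simp)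
    rw [this]; exact M.one_mem⟩

theorem IsIn.sq {M : Subgroup Rˣ} {β : R} (h : IsIn M β) : β * β = 0 := h.1

theorem IsIn.mem {M : Subgroup Rˣ} {β : R} (h : IsIn M β) : sqU β h.1 ∈ M := h.2

theorem isIn_conj {M : Subgroup Rˣ} {β : R} (h : IsIn M β) (g : Rˣ) (hg : g ∈ M) :
    IsIn M ((g : R) * β * ((g⁻¹ : Rˣ) : R)) := by
  have hs : ((g : R) * β * ((g⁻¹ : Rˣ) : R)) * ((g : R) * β * ((g⁻¹ : Rˣ) : R)) = 0 := by
    have h1 : ((g⁻¹ : Rˣ) : R) * (g : R) = 1 := g.inv_mul
    calc ((g : R) * β * ((g⁻¹ : Rˣ) : R)) * ((g : R) * β * ((g⁻¹ : Rˣ) : R))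
        = (g : R) * β * (((g⁻¹ : Rˣ) : R) * (g : R)) * β * ((g⁻¹ : Rˣ) : R) := by noncomm_ring
      _ = (g : R) * (β * β) * ((g⁻¹ : Rˣ) : R) := by rw [h1]; noncomm_ring
      _ = 0 := by rw [h.sq]; simp
  refine ⟨hs, ?_⟩
  have : sqU ((g : R) * β * ((g⁻¹ : Rˣ) : R)) hs = g * sqU β h.sq * g⁻¹ := by
    apply Units.ext
    simp only [sqU_val, Units.val_mul]
    have h2 : (g : R) * ((g⁻¹ : Rˣ) : R) = 1 := g.mul_inv
    calc 1 + (g : R) * β * ((g⁻¹ : Rˣ) : R)
        = (g : R) * ((g⁻¹ : Rˣ) : R) + (g : R) * β * ((g⁻¹ : Rˣ) : R) := by rw [h2]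
      _ = (g : R) * (1 + β) * ((g⁻¹ : Rˣ) : R) := by noncomm_ring
  rw [this]
  exact M.mul_mem (M.mul_mem hg h.mem) (M.inv_mem hg)

theorem isIn_neg {M : Subgroup Rˣ} {β : R} (h : IsIn M β) : IsIn M (-β) := by
  have hs : (-β) * (-β) = 0 := by rw [neg_mul_neg]; exact h.sq
  refine ⟨hs, ?_⟩
  have : sqU (-β) hs = (sqU β h.sq)⁻¹ := by
    apply Units.ext
    simp [sub_eq_add_neg]
  rw [this]
  exact M.inv_mem h.mem

theorem isIn_add {M : Subgroup Rˣ} {β ε : R} (hβ : IsIn M β) (hε : IsIn M ε)
    (h1 : β * ε = 0) (h2 : ε * β = 0) : IsIn M (β + ε) := by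
  have hs : (β + ε) * (β + ε) = 0 := by
    have : (β + ε) * (β + ε) = β * β + β * ε + ε * β + ε * ε := by noncomm_ring
    rw [this, hβ.sq, hε.sq, h1, h2]; simp
  refine ⟨hs, ?_⟩
  have : sqU (β + ε) hs = sqU β hβ.sq * sqU ε hε.sq := by
    apply Units.ext
    simp only [sqU_val, Units.val_mul]
    have : (1 + β) * (1 + ε) = 1 + β + ε + β * ε := by noncomm_ring
    rw [this, h1, add_zero, add_assoc]
  rw [this]
  exact M.mul_mem hβ.mem hε.mem

theorem isIn_sub {M : Subgroup Rˣ} {β ε : R} (hβ : IsIn M β) (hε : IsIn M ε)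
    (h1 : β * ε = 0) (h2 : ε * β = 0) : IsIn M (β - ε) := by
  rw [sub_eq_add_neg]
  exact isIn_add hβ (isIn_neg hε) (by rw [mul_neg, h1, neg_zero]) (by rw [neg_mul, h2, neg_zero])

/-- The commutator of two square-zero elements. -/
theorem isIn_comm {M : Subgroup Rˣ} {β ε : R} (hβ : IsIn M β) (hε : IsIn M ε)
    (h1 : β * ε * β = 0) (h2 : ε * β * ε = 0) : IsIn M (β * ε - ε * β) := by
  have hb := hβ.sq
  have he := hε.sq
  have hs : (β * ε - ε * β) * (β * ε - ε * β) = 0 := by
    have : (β * ε - ε * β) * (β * ε - ε * β)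
        = (β * ε * β) * ε - β * (ε * ε) * β - ε * (β * β) * ε + (ε * β * ε) * β := by noncomm_ring
    rw [this, h1, h2, he, hb]; simp
  refine ⟨hs, ?_⟩
  have : sqU (β * ε - ε * β) hs = sqU β hb * sqU ε he * (sqU β hb)⁻¹ * (sqU ε he)⁻¹ := by
    apply Units.ext
    simp only [sqU_val, sqU_inv_val, Units.val_mul]
    have : (1 + β) * (1 + ε) * (1 - β) * (1 - ε)
        = 1 + β * ε - ε * β - (β * β) - (β * ε * β) - (ε * ε) - β * (ε * ε) + (ε * β * ε)
          + (β * β) * ε + (β * ε * β) * ε := by
      noncomm_ring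
    rw [this, hb, he, h1, h2]
    simp only [mul_zero, zero_mul, sub_zero, add_zero]
    noncomm_ring
  rw [this]
  exact M.mul_mem (M.mul_mem (M.mul_mem hβ.mem hε.mem) (M.inv_mem hβ.mem)) (M.inv_mem hε.mem)

end Ring

section Func
variable {K V : Type*} [Field K] [AddCommGroup V] [Module K V]

/-- A functional vanishing on `S` with a prescribed value at `x ∉ S`. -/
theorem exists_func (S : Submodule K V) {x : V} (hx : x ∉ S) (c : K) :
    ∃ f : V →ₗ[K] K, (∀ s ∈ S, f s = 0) ∧ f x = c := by
  obtain ⟨f, hf1, hf2⟩ := Submodule.exists_dual_map_eq_bot_of_notMem hx (inferInstance)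
  refine ⟨(c * (f x)⁻¹) • f, ?_, ?_⟩
  · intro s hs
    have : f s ∈ S.map f := Submodule.mem_map_of_mem hs
    rw [hf2, Submodule.mem_bot] at this
    simp [this]
  · simp [hf1]

end Func

section Ext
variable (F : Type*) {K : Type*} [Field F] [Field K] [Algebra F K]

/-- A proper nonzero `F`-subspace of `K`, stable under `t`, forces `t ∈ F` when the degree is
prime. -/
theorem mem_base_of_stable [FiniteDimensional F K] (hr : (finrank F K).Prime) {t : K}
    {D : Submodule F K} (hD0 : D ≠ ⊥) (hD1 : D ≠ ⊤) (ht : ∀ d ∈ D, t * d ∈ D) :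
    t ∈ (algebraMap F K).range := by
  classical
  set E := IntermediateField.adjoin F {t} with hE
  have hmul := Module.finrank_mul_finrank F E K
  rw [← hmul] at hr
  have hint : IsIntegral F t := Algebra.IsIntegral.isIntegral t
  have hstable : ∀ x ∈ Algebra.adjoin F {t}, ∀ d ∈ D, x * d ∈ D := by
    intro x hx
    induction hx using Algebra.adjoin_induction with
    | mem y hy =>
      rw [Set.mem_singleton_iff] at hy
      subst hy
      exact ht
    | algebraMap s =>
      intro d hd
      rw [← Algebra.smul_def]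
      exact D.smul_mem s hd
    | add a b _ _ ha hb =>
      intro d hd
      rw [add_mul]
      exact D.add_mem (ha d hd) (hb d hd)
    | mul a b _ _ ha hb =>
      intro d hd
      rw [mul_assoc]
      exact ha _ (hb d hd)
  have hEeq : E.toSubalgebra = Algebra.adjoin F {t} :=
    IntermediateField.adjoin_simple_toSubalgebra_of_isAlgebraic hint.isAlgebraic
  rcases Nat.prime_mul_iff.mp hr with ⟨_, h1⟩ | ⟨_, h1⟩
  · -- `finrank E K = 1`: `E = K`
    exfalso
    obtain ⟨d, hd, hd0⟩ := D.exists_mem_ne_zero_of_ne_bot hD0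
    apply hD1
    rw [eq_top_iff]
    intro y _
    have hEtop : E = ⊤ := IntermediateField.finrank_eq_one_iff_eq_top.mp h1
    have hmem : y * d⁻¹ ∈ Algebra.adjoin F {t} := by
      rw [← hEeq]
      have : y * d⁻¹ ∈ E := by rw [hEtop]; exact IntermediateField.mem_top
      exact this
    have := hstable _ hmem d hd
    rwa [mul_assoc, inv_mul_cancel₀ hd0, mul_one] at this
  · have hbot : E = ⊥ := IntermediateField.finrank_eq_one_iff.mp h1
    have htE : t ∈ E := IntermediateField.mem_adjoin_simple_self F t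
    rw [hbot, IntermediateField.mem_bot] at htE
    obtain ⟨s, hs⟩ := htE
    exact ⟨s, hs⟩

end Ext

section Func2
variable {F K V : Type*} [Field F] [Field K] [Algebra F K] [AddCommGroup V] [Module F V] [Module K V]
  [IsScalarTower F K V]

/-- Every `F`-functional is `lam ∘ f`, for a fixed nonzero `lam : K → F`. -/
theorem exists_functional [FiniteDimensional F K] [FiniteDimensional K V] {lam : K →ₗ[F] F}
    (hlam : lam ≠ 0) (φ : V →ₗ[F] F) :
    ∃ f : V →ₗ[K] K, ∀ x, φ x = lam (f x) := by
  have : FiniteDimensional F V := FiniteDimensional.trans F K V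
  let Λ : (V →ₗ[K] K) →ₗ[F] (V →ₗ[F] F) :=
    { toFun := fun f => lam.comp (f.restrictScalars F)
      map_add' := fun f g => by ext x; simp
      map_smul' := fun c f => by ext x; simp }
  have hinj : Function.Injective Λ := by
    rw [injective_iff_map_eq_zero]
    intro f hf
    by_contra hne
    obtain ⟨x, hx⟩ : ∃ x, f x ≠ 0 := by
      by_contra h
      push Not at h
      exact hne (LinearMap.ext h)
    apply hlam
    ext t
    have h0 : Λ f (((t / f x) : K) • x) = 0 := by rw [hf]; rfl
    have h1 : Λ f (((t / f x) : K) • x) = lam t := by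
      change lam (f ((t / f x) • x)) = lam t
      rw [map_smul, smul_eq_mul, div_mul_cancel₀ _ hx]
    rw [← h1, h0]; rfl
  have hdim : finrank F (V →ₗ[K] K) = finrank F (V →ₗ[F] F) := by
    have h1 : finrank F (V →ₗ[F] F) = finrank F V := Subspace.dual_finrank_eq
    have h2 : finrank K (V →ₗ[K] K) = finrank K V := Subspace.dual_finrank_eq
    have h3 := Module.finrank_mul_finrank F K V
    have h4 := Module.finrank_mul_finrank F K (V →ₗ[K] K)
    rw [h1, ← h3, ← h4, h2]
  have hsurj : Function.Surjective Λ := (LinearMap.injective_iff_surjective_of_finrank_eq_finrank hdim).mp hinj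
  obtain ⟨f, hf⟩ := hsurj φ
  exact ⟨f, fun x => by rw [← hf]; rfl⟩

end Func2

section NormOne
variable (F : Type*) {K : Type*} [Field F] [Field K] [Algebra F K] [Finite F] [Finite K]

/-- In a finite extension of degree at least two, the elements of norm one span additively. -/
theorem closure_norm_one (hr : 2 ≤ finrank F K) :
    AddSubgroup.closure {a : K | Algebra.norm F a = 1} = ⊤ := by
  classical
  have := Fintype.ofFinite K
  set K₁ : Set K := {a : K | Algebra.norm F a = 1} with hK₁
  set L := AddSubgroup.closure K₁ with hL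
  have h1 : (1 : K) ∈ L := AddSubgroup.subset_closure (by simp [hK₁])
  have hmul₁ : ∀ a ∈ K₁, ∀ x ∈ L, a * x ∈ L := by
    intro a ha x hx
    induction hx using AddSubgroup.closure_induction with
    | mem y hy =>
      apply AddSubgroup.subset_closure
      have ha' : Algebra.norm F a = 1 := ha
      have hy' : Algebra.norm F y = 1 := hy
      change Algebra.norm F (a * y) = 1
      rw [map_mul, ha', hy', one_mul]
    | zero => simp
    | add x y _ _ hx hy => rw [mul_add]; exact L.add_mem hx hy
    | neg x _ hx => rw [mul_neg]; exact L.neg_mem hx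
  have hmul : ∀ x ∈ L, ∀ y ∈ L, x * y ∈ L := by
    intro x hx y hy
    induction hx using AddSubgroup.closure_induction with
    | mem z hz => exact hmul₁ z hz y hy
    | zero => simp
    | add a b _ _ ha hb => rw [add_mul]; exact L.add_mem ha hb
    | neg a _ ha => rw [neg_mul]; exact L.neg_mem ha
  have hpow : ∀ x ∈ L, ∀ n : ℕ, x ^ n ∈ L := by
    intro x hx n
    induction n with
    | zero => simpa using h1
    | succ n ih => rw [pow_succ]; exact hmul _ ih _ hx
  have hcard2 : 2 ≤ Fintype.card K := Fintype.one_lt_card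
  have hinv : ∀ x ∈ L, x ≠ 0 → x⁻¹ ∈ L := by
    intro x hx hx0
    have hp := FiniteField.pow_card_sub_one_eq_one x hx0
    have : x⁻¹ = x ^ (Fintype.card K - 2) := by
      symm
      apply eq_inv_of_mul_eq_one_left
      rw [← pow_succ]
      rw [show Fintype.card K - 2 + 1 = Fintype.card K - 1 by omega]
      exact hp
    rw [this]
    exact hpow x hx _
  rw [eq_top_iff]
  intro z _
  by_contra hz
  -- `|L|² ≤ |K|`
  have hsq : Nat.card L * Nat.card L ≤ Nat.card K := by
    let φ : L × L → K := fun p => (p.1 : K) + (p.2 : K) * z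
    have hφ : Function.Injective φ := by
      rintro ⟨a, b⟩ ⟨c, d⟩ h
      have h' : (a : K) + (b : K) * z = (c : K) + (d : K) * z := h
      by_cases hbd : (b : K) = (d : K)
      · have : (a : K) = (c : K) := by rw [hbd] at h'; exact add_right_cancel h'
        exact Prod.ext (Subtype.ext this) (Subtype.ext hbd)
      · exfalso
        apply hz
        have hne : (b : K) - (d : K) ≠ 0 := sub_ne_zero.mpr hbd
        have hz' : z = ((c : K) - (a : K)) * ((b : K) - (d : K))⁻¹ := by
          field_simp
          linear_combination h'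
        rw [hz']
        exact hmul _ (L.sub_mem c.2 a.2) _ (hinv _ (L.sub_mem b.2 d.2) hne)
    have := Nat.card_le_card_of_injective φ hφ
    rwa [Nat.card_prod] at this
  -- the norm-one units
  let nm : Kˣ →* Fˣ := Units.map (Algebra.norm F : K →* F)
  have hker : Nat.card nm.ker * nm.ker.index = Nat.card Kˣ := Subgroup.card_mul_index _
  have hidx : nm.ker.index ≤ Nat.card Fˣ := by
    rw [Subgroup.index_ker]
    exact Nat.card_le_card_of_injective (fun x => (x : Fˣ)) Subtype.val_injective
  have hKu : Nat.card Kˣ + 1 = Nat.card K := by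
    rw [Nat.card_units]
    have : 1 ≤ Nat.card K := Nat.card_pos
    omega
  have hFu : Nat.card Fˣ + 1 = Nat.card F := by
    rw [Nat.card_units]
    have : 1 ≤ Nat.card F := Nat.card_pos
    omega
  have hkL : Nat.card nm.ker + 1 ≤ Nat.card L := by
    let ψ : Option nm.ker → L := fun o => match o with
      | none => 0
      | some u => ⟨((u : Kˣ) : K), AddSubgroup.subset_closure (by
          have hu : nm u = 1 := u.2
          have := congrArg (fun w : Fˣ => (w : F)) hu
          simpa [nm, hK₁] using this)⟩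
    have hψ : Function.Injective ψ := by
      intro a b h
      rcases a with _ | a <;> rcases b with _ | b
      · rfl
      · exfalso
        have : (0 : K) = ((b : Kˣ) : K) := congrArg Subtype.val h
        exact (b : Kˣ).ne_zero this.symm
      · exfalso
        have : ((a : Kˣ) : K) = 0 := congrArg Subtype.val h
        exact (a : Kˣ).ne_zero this
      · have : ((a : Kˣ) : K) = ((b : Kˣ) : K) := congrArg Subtype.val h
        congr 1
        exact Subtype.ext (Units.ext this)
    have := Nat.card_le_card_of_injective ψ hψ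
    rwa [Finite.card_option] at this
  have hQ : Nat.card K = Nat.card F ^ finrank F K := Module.natCard_eq_pow_finrank
  have hqq : Nat.card F ^ 2 ≤ Nat.card K := by
    rw [hQ]
    exact Nat.pow_le_pow_right Nat.card_pos hr
  have hq2 : 2 ≤ Nat.card F := by
    have := Finite.one_lt_card (α := F)
    omega
  -- arithmetic
  generalize Nat.card L = l at *
  generalize Nat.card nm.ker = k at *
  generalize nm.ker.index = i at *
  generalize Nat.card Kˣ = a at *
  generalize Nat.card Fˣ = p at *
  generalize Nat.card K = Q at *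
  generalize Nat.card F = q at *
  subst hFu
  have hp : 1 ≤ p := by omega
  have h2 : k * i + 1 = Q := by rw [hker]; exact hKu
  have h3 : k * i ≤ k * p := Nat.mul_le_mul_left k hidx
  have h4 : Q ≤ l * p := by
    have : (k + 1) * p ≤ l * p := Nat.mul_le_mul_right p hkL
    nlinarith
  have hl : 0 < l := by omega
  have h5 : l ≤ p := by
    by_contra hlt
    push Not at hlt
    nlinarith
  have h6 : l * p ≤ p * p := Nat.mul_le_mul_right p h5
  nlinarith

end NormOne

end Cfsg.Agent.Lib.Classical.Spread
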