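import Mathlib
import Cfsg.Agent.Lib.Classical.Spread.Basic

/-!
# From one `F`-transvection to all of them

`M` contains the `K`-transvections and the `K`-diagonal maps of norm one; if `M` contains one
`F`-transvection then it contains all of them.
-/

set_option autoImplicit false

namespace Cfsg.Agent.Lib.Classical.Spread

open Module

section Defs
variable (F : Type*) {K V : Type*} [Field F] [Field K] [Algebra F K] [AddCommGroup V] [Module F V]
  [Module K V] [IsScalarTower F K V]

/-- The `F`-linear map `x ↦ f x • w`, for a `K`-functional `f`. -/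
def kt (f : V →ₗ[K] K) (w : V) : Module.End F V := (f.restrictScalars F).smulRight w

@[simp] theorem kt_apply (f : V →ₗ[K] K) (w x : V) : kt F f w x = f x • w := rfl

theorem scale_mul (f : V →ₗ[K] K) (v : V) (hv : f v = 1) {a b : K} (h : a * b = 1) :
    (1 + kt F f ((a - 1) • v)) * (1 + kt F f ((b - 1) • v)) = (1 : Module.End F V) := by
  ext x
  have e : (x + f x • (b - 1) • v) + f (x + f x • (b - 1) • v) • (a - 1) • v = x := by
    have : f (x + f x • (b - 1) • v) = f x * b := by simp [hv]; ring
    rw [this, smul_smul, smul_smul, add_assoc, ← add_smul]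
    have : f x * (b - 1) + f x * b * (a - 1) = 0 := by linear_combination f x * h
    rw [this, zero_smul, add_zero]
  simpa [Module.End.mul_apply] using e

/-- The `K`-diagonal map: multiplication by `a` on `K v`, the identity on `ker f`. -/
def scaleU (f : V →ₗ[K] K) (v : V) (a : K) (hv : f v = 1) (ha : a ≠ 0) : (Module.End F V)ˣ where
  val := 1 + kt F f ((a - 1) • v)
  inv := 1 + kt F f ((a⁻¹ - 1) • v)
  val_inv := scale_mul F f v hv (mul_inv_cancel₀ ha)
  inv_val := scale_mul F f v hv (inv_mul_cancel₀ ha)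

theorem scaleU_apply (f : V →ₗ[K] K) (v : V) (a : K) (hv : f v = 1) (ha : a ≠ 0) (x : V) :
    (scaleU F f v a hv ha : Module.End F V) x = x + f x • (a - 1) • v := rfl

theorem scaleU_inv_apply (f : V →ₗ[K] K) (v : V) (a : K) (hv : f v = 1) (ha : a ≠ 0) (x : V) :
    (((scaleU F f v a hv ha)⁻¹ : (Module.End F V)ˣ) : Module.End F V) x
      = x + f x • (a⁻¹ - 1) • v := rfl

/-- The hypotheses on a subgroup: it contains the `K`-linear maps we use. -/
structure Good (K : Type*) [Field K] [Algebra F K] [Module K V] [IsScalarTower F K V]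
    (M : Subgroup (Module.End F V)ˣ) : Prop where
  trans : ∀ (f : V →ₗ[K] K) (w : V), f w = 0 → IsIn M (kt F f w)
  scale : ∀ (f : V →ₗ[K] K) (v : V) (a : K) (hv : f v = 1) (ha : a ≠ 0), Algebra.norm F a = 1 →
    scaleU F f v a hv ha ∈ M
  diag : ∀ (f₁ f₂ : V →ₗ[K] K) (v₁ v₂ : V) (s : F) (h₁ : f₁ v₁ = 1) (h₂ : f₂ v₂ = 1)
    (_ : f₁ v₂ = 0) (_ : f₂ v₁ = 0) (hs : algebraMap F K s ≠ 0) (hs' : algebraMap F K s⁻¹ ≠ 0),
    scaleU F f₁ v₁ (algebraMap F K s) h₁ hs * scaleU F f₂ v₂ (algebraMap F K s⁻¹) h₂ hs' ∈ M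

end Defs

section Flags
variable {F K V : Type*} [Field F] [Field K] [Algebra F K] [AddCommGroup V] [Module F V]
  [Module K V] [IsScalarTower F K V]

/-- The `F`-linear map `y ↦ φ y • x`. -/
def fl (φ : V →ₗ[F] F) (x : V) : Module.End F V := φ.smulRight x

@[simp] theorem fl_apply (φ : V →ₗ[F] F) (x y : V) : fl φ x y = φ y • x := rfl

/-- `lam ∘ f`, as an `F`-functional. -/
def lf (lam : K →ₗ[F] F) (f : V →ₗ[K] K) : V →ₗ[F] F := lam.comp (f.restrictScalars F)

@[simp] theorem lf_apply (lam : K →ₗ[F] F) (f : V →ₗ[K] K) (x : V) : lf lam f x = lam (f x) := rfl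

variable {M : Subgroup (Module.End F V)ˣ}

/-- `Ψ e f`: the flag `(e, lam ∘ f)`, with `f e = 0`, lies in `M`. -/
def Psi (M : Subgroup (Module.End F V)ˣ) (lam : K →ₗ[F] F) (e : V) (f : V →ₗ[K] K) : Prop :=
  f e = 0 ∧ IsIn M (fl (lf lam f) e)

theorem fl_mul_fl_zero {φ φ' : V →ₗ[F] F} {x x' : V} (h : φ x' = 0) :
    fl φ x * fl φ' x' = 0 := by
  ext y
  simp [Module.End.mul_apply, h]

section PsiLemmas
variable {lam : K →ₗ[F] F} {e : V}

theorem psi_add {f g : V →ₗ[K] K} (hf : Psi M lam e f) (hg : Psi M lam e g) :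
    Psi M lam e (f + g) := by
  refine ⟨by simp [hf.1, hg.1], ?_⟩
  have := isIn_add hf.2 hg.2 (fl_mul_fl_zero (by simp [hf.1, hg.1]))
    (fl_mul_fl_zero (by simp [hf.1, hg.1]))
  convert this using 1
  ext x
  simp [add_smul]

theorem psi_neg {f : V →ₗ[K] K} (hf : Psi M lam e f) : Psi M lam e (-f) := by
  refine ⟨by simp [hf.1], ?_⟩
  have := isIn_neg hf.2
  convert this using 1
  ext x
  simp

theorem psi_zero : Psi M lam e (0 : V →ₗ[K] K) := by
  refine ⟨by simp, ?_⟩
  have := isIn_zero M
  convert this using 1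
  ext x
  simp

theorem psi_sub {f g : V →ₗ[K] K} (hf : Psi M lam e f) (hg : Psi M lam e g) :
    Psi M lam e (f - g) := by
  rw [sub_eq_add_neg]
  exact psi_add hf (psi_neg hg)

/-- Scaling by an element of norm one. -/
theorem psi_scale_one [FiniteDimensional F K] (hG : Good F K M) {f : V →ₗ[K] K}
    (hf : Psi M lam e f) {b : K} (hb : Algebra.norm F b = 1) : Psi M lam e (b • f) := by
  by_cases hf0 : f = 0
  · subst hf0
    simpa using psi_zero
  obtain ⟨x₀, hx₀⟩ : ∃ x, f x ≠ 0 := by
    by_contra h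
    push Not at h
    exact hf0 (LinearMap.ext h)
  have hv : f ((f x₀)⁻¹ • x₀) = 1 := by simp [hx₀]
  set v := (f x₀)⁻¹ • x₀
  have hb0 : b ≠ 0 := by
    rintro rfl
    rw [Algebra.norm_zero] at hb
    exact zero_ne_one hb
  have hbi : b⁻¹ ≠ 0 := inv_ne_zero hb0
  have hnorm : Algebra.norm F b⁻¹ = 1 := by
    have := map_mul (Algebra.norm F) b b⁻¹
    rw [mul_inv_cancel₀ hb0, map_one, hb, one_mul] at this
    exact this.symm
  have hmem := hG.scale f v b⁻¹ hv hbi hnorm
  have hc := isIn_conj hf.2 _ hmem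
  refine ⟨by simp [hf.1], ?_⟩
  convert hc using 1
  ext x
  have h1 : (scaleU F f v b⁻¹ hv hbi : Module.End F V) e = e := by
    rw [scaleU_apply, hf.1, zero_smul, add_zero]
  have h2 : f (((scaleU F f v b⁻¹ hv hbi)⁻¹ : (Module.End F V)ˣ).val x) = b * f x := by
    rw [scaleU_inv_apply]
    simp only [map_add, map_smul, hv, smul_eq_mul, mul_one, inv_inv]
    ring
  simp only [Module.End.mul_apply, fl_apply, lf_apply, map_smul, h1, h2, LinearMap.smul_apply,
    smul_eq_mul]

/-- Closure under `K`-scaling. -/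
theorem psi_scale [Finite F] [Finite K] [FiniteDimensional F K] (hr : 2 ≤ finrank F K)
    (hG : Good F K M) {f : V →ₗ[K] K} (hf : Psi M lam e f) (c : K) : Psi M lam e (c • f) := by
  have hc : c ∈ AddSubgroup.closure {a : K | Algebra.norm F a = 1} := by
    rw [closure_norm_one F hr]; trivial
  induction hc using AddSubgroup.closure_induction with
  | mem y hy => exact psi_scale_one hG hf hy
  | zero => simpa using psi_zero
  | add a b _ _ ha hb => rw [add_smul]; exact psi_add ha hb
  | neg a _ ha =>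
    have h : (-a) • f = -(a • f) := by
      ext x
      simp
    rw [h]
    exact psi_neg ha

/-- From one nonzero `K`-flag at `e` to all of them. -/
theorem psi_all [Finite F] [Finite K] [FiniteDimensional F K] (hr : 2 ≤ finrank F K)
    (hG : Good F K M) {f₀ f₁ : V →ₗ[K] K} (hf : Psi M lam e f₀) (hf0 : f₀ ≠ 0) (h1 : f₁ e = 0) :
    Psi M lam e f₁ := by
  by_cases hdep : ∀ v, f₁ v = 0 → f₀ v = 0
  · -- `f₁` is a multiple of `f₀`
    by_cases hf1 : f₁ = 0
    · subst hf1; exact psi_zero
    obtain ⟨y, hy⟩ : ∃ x, f₁ x ≠ 0 := by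
      by_contra h
      push Not at h
      exact hf1 (LinearMap.ext h)
    have hy0 : f₀ y ≠ 0 := by
      intro h0
      apply hf0
      ext x
      have := hdep (x - (f₁ x / f₁ y) • y) (by simp [hy])
      simpa [h0] using this
    have : f₁ = (f₁ y / f₀ y) • f₀ := by
      ext x
      have := hdep (x - (f₁ x / f₁ y) • y) (by simp [hy])
      simp only [map_sub, map_smul, smul_eq_mul, sub_eq_zero] at this
      simp only [LinearMap.smul_apply, smul_eq_mul, this]
      field_simp
    rw [this]
    exact psi_scale hr hG hf _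
  · push Not at hdep
    obtain ⟨v₀, hv0, hv1⟩ := hdep
    have hv : f₀ ((f₀ v₀)⁻¹ • v₀) = 1 := by simp [hv1]
    have hv' : f₁ ((f₀ v₀)⁻¹ • v₀) = 0 := by simp [hv0]
    set v := (f₀ v₀)⁻¹ • v₀
    have hT := hG.trans f₁ v hv'
    have hc := isIn_conj hf.2 _ hT.mem
    have h2 : Psi M lam e (f₀ - f₁) := by
      refine ⟨by simp [hf.1, h1], ?_⟩
      convert hc using 1
      ext x
      have h3 : (sqU (kt F f₁ v) hT.sq : Module.End F V) e = e := by
        simp [h1]
      have h4 : f₀ (((sqU (kt F f₁ v) hT.sq)⁻¹ : (Module.End F V)ˣ).val x) = f₀ x - f₁ x := by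
        simp [sub_eq_add_neg, hv]
      simp only [Module.End.mul_apply, fl_apply, lf_apply, map_smul, h3, h4, LinearMap.sub_apply]
    have := psi_sub hf h2
    simpa using this

/-- `P e`: all `K`-flags at `e` are in `M`. -/
def AllK (M : Subgroup (Module.End F V)ˣ) (lam : K →ₗ[F] F) (e : V) : Prop :=
  ∀ f : V →ₗ[K] K, f e = 0 → Psi M lam e f

/-- Transport by a `K`-transvection. -/
theorem allK_transport (hG : Good F K M) (h : AllK M lam e) {g : V →ₗ[K] K} {w : V}
    (hw : g w = 0) : AllK M lam (e + g e • w) := by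
  intro f' hf'
  set f : V →ₗ[K] K := f' + (f' w) • g with hfdef
  have hfapp : ∀ x, f x = f' x + g x * f' w := by
    intro x; simp [hfdef, mul_comm]
  have hfe : f e = 0 := by
    rw [hfapp]
    have : f' (e + g e • w) = f' e + g e * f' w := by simp
    rw [← this]; exact hf'
  have hP := h f hfe
  have hT := hG.trans g w hw
  have hc := isIn_conj hP.2 _ hT.mem
  refine ⟨hf', ?_⟩
  convert hc using 1
  ext x
  have h3 : (sqU (kt F g w) hT.sq : Module.End F V) e = e + g e • w := by simp
  have h4 : f (((sqU (kt F g w) hT.sq)⁻¹ : (Module.End F V)ˣ).val x) = f' x := by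
    rw [hfapp]
    simp [sub_eq_add_neg, hw]
  simp only [Module.End.mul_apply, fl_apply, lf_apply, map_smul, h3, h4]

theorem allK_move (hG : Good F K M) (h : AllK M lam e) (he : e ≠ 0) {e' : V}
    (he' : e' ∉ Submodule.span K {e}) : AllK M lam e' := by
  have he2 : e ∉ Submodule.span K {e'} := by
    intro hmem
    obtain ⟨t, ht⟩ := Submodule.mem_span_singleton.mp hmem
    have ht0 : t ≠ 0 := by
      rintro rfl
      exact he (by simpa using ht.symm)
    apply he'
    apply Submodule.mem_span_singleton.mpr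
    exact ⟨t⁻¹, by rw [← ht, smul_smul, inv_mul_cancel₀ ht0, one_smul]⟩
  obtain ⟨f₁, hf1, hf1'⟩ := exists_func _ he' (1 : K)
  obtain ⟨f₂, hf2, hf2'⟩ := exists_func _ he2 (1 : K)
  have h1e : f₁ e = 0 := hf1 e (Submodule.mem_span_singleton_self e)
  have h2e : f₂ e' = 0 := hf2 e' (Submodule.mem_span_singleton_self e')
  have hw : (f₁ + f₂) (e' - e) = 0 := by
    simp [h1e, h2e, hf1', hf2']
  have := allK_transport hG h hw
  have h3 : (f₁ + f₂) e = 1 := by simp [h1e, hf2']
  rw [h3, one_smul, add_sub_cancel] at this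
  exact this

end PsiLemmas

/-- A vector outside any `K`-line. -/
theorem exists_notMem_span (K : Type*) {V : Type*} [Field K] [AddCommGroup V] [Module K V]
    [FiniteDimensional K V] (hm : 2 ≤ finrank K V) (e : V) : ∃ z, z ∉ Submodule.span K {e} := by
  by_contra h
  push Not at h
  have htop : Submodule.span K {e} = ⊤ := by
    rw [eq_top_iff]
    intro x _
    exact h x
  by_cases he : e = 0
  · subst he
    have h2 : finrank K (Submodule.span K {(0 : V)}) = 0 := by simp
    rw [htop, finrank_top] at h2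
    omega
  · have h2 := finrank_span_singleton (K := K) he
    rw [htop, finrank_top] at h2
    omega

theorem allK_every [FiniteDimensional K V] (hm : 2 ≤ finrank K V) {lam : K →ₗ[F] F} {e e' : V}
    (hG : Good F K M) (h : AllK M lam e) (he : e ≠ 0) (he' : e' ≠ 0) : AllK M lam e' := by
  by_cases hc : e' ∈ Submodule.span K {e}
  · obtain ⟨z, hz⟩ := exists_notMem_span K hm e
    have hz0 : z ≠ 0 := by
      rintro rfl
      exact hz (Submodule.zero_mem _)
    have h2 := allK_move hG h he hz
    apply allK_move hG h2 hz0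
    intro hmem
    obtain ⟨t, ht⟩ := Submodule.mem_span_singleton.mp hc
    obtain ⟨t', ht'⟩ := Submodule.mem_span_singleton.mp hmem
    have ht0 : t' ≠ 0 := by
      rintro rfl
      exact he' (by simpa using ht'.symm)
    apply hz
    apply Submodule.mem_span_singleton.mpr
    refine ⟨t'⁻¹ * t, ?_⟩
    rw [mul_smul, ht, ← ht', smul_smul, inv_mul_cancel₀ ht0, one_smul]
  · exact allK_move hG h he hc

/-- One `F`-transvection gives all `F`-transvections. -/
theorem all_flags [Finite F] [Finite K] [FiniteDimensional F K] [FiniteDimensional K V]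
    (hr : 2 ≤ finrank F K) (hm : 2 ≤ finrank K V) (hG : Good F K M) {φ : V →ₗ[F] F} {e : V}
    (hφ0 : φ ≠ 0) (he : e ≠ 0) (hin : IsIn M (fl φ e)) :
    ∀ (φ' : V →ₗ[F] F) (x : V), φ' x = 0 → IsIn M (fl φ' x) := by
  obtain ⟨lam, -, hlam⟩ := exists_func (⊥ : Submodule F K) (x := (1 : K)) (by simp) (1 : F)
  have hlam0 : lam ≠ 0 := by
    rintro rfl
    simp at hlam
  have hφe : φ e = 0 := by
    by_contra hne
    -- `β² = 0` forces `φ e = 0`
    have h1 := hin.sq
    obtain ⟨x, hx⟩ : ∃ x, φ x ≠ 0 := by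
      by_contra h
      push Not at h
      exact hφ0 (LinearMap.ext h)
    have := LinearMap.congr_fun h1 x
    simp only [Module.End.mul_apply, fl_apply, map_smul, smul_eq_mul, LinearMap.zero_apply] at this
    rw [smul_eq_zero] at this
    rcases this with h | h
    · exact hx h
    · rcases smul_eq_zero.mp h with h | h
      · exact hne h
      · exact he h
  -- a nonzero `K`-flag at `e`
  obtain ⟨f₁, hf₁⟩ := exists_functional hlam0 φ
  obtain ⟨f₀, hf0, hf0'⟩ : ∃ f₀ : V →ₗ[K] K, f₀ ≠ 0 ∧ Psi M lam e f₀ := by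
    by_cases h0 : f₁ e = 0
    · refine ⟨f₁, ?_, h0, ?_⟩
      · rintro rfl
        apply hφ0
        ext x
        simp [hf₁]
      · convert hin using 1
        ext x
        simp [hf₁]
    · obtain ⟨y, hy⟩ := exists_notMem_span K hm e
      obtain ⟨g, hg, hg'⟩ := exists_func _ hy (1 : K)
      have hge : g e = 0 := hg e (Submodule.mem_span_singleton_self e)
      have hT := hG.trans g e hge
      have hc := isIn_comm hin hT (by
        ext x
        simp [Module.End.mul_apply, hge]) (by
        ext x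
        simp [Module.End.mul_apply, hge])
      refine ⟨f₁ e • g, ?_, by simp [hge], ?_⟩
      · intro h
        have := LinearMap.congr_fun h y
        simp [hg', h0] at this
      · convert hc using 1
        ext x
        simp [Module.End.mul_apply, hf₁, hge, mul_comm]
  have hall : AllK M lam e := fun f hf => psi_all hr hG hf0' hf0 hf
  intro φ' x hφ'
  by_cases hx : x = 0
  · subst hx
    have : fl φ' (0 : V) = 0 := by ext y; simp
    rw [this]; exact isIn_zero M
  have hallx := allK_every hm hG hall he hx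
  obtain ⟨f', hf'⟩ := exists_functional hlam0 φ'
  have hφ'eq : φ' = lf lam f' := by ext y; simp [hf']
  by_cases h0 : f' x = 0
  · rw [hφ'eq]
    exact (hallx f' h0).2
  -- the non-`K` flags
  obtain ⟨z, hz⟩ := exists_notMem_span K hm x
  set y := z - (f' z / f' x) • x with hy
  have hfy : f' y = 0 := by
    simp [hy, h0]
  have hy0 : y ≠ 0 := by
    intro h
    apply hz
    have : z = (f' z / f' x) • x := by
      rw [hy, sub_eq_zero] at h; exact h
    rw [this]
    exact Submodule.smul_mem _ _ (Submodule.mem_span_singleton_self x)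
  have hyx : y ∉ Submodule.span K {x} := by
    intro hmem
    obtain ⟨t, ht⟩ := Submodule.mem_span_singleton.mp hmem
    have : t * f' x = 0 := by
      have h2 := hfy
      rw [← ht, map_smul, smul_eq_mul] at h2
      exact h2
    rcases mul_eq_zero.mp this with h | h
    · rw [h, zero_smul] at ht
      exact hy0 ht.symm
    · exact h0 h
  obtain ⟨f₂, hf2, hf2'⟩ := exists_func _ hyx (1 : K)
  have hf2x : f₂ x = 0 := hf2 x (Submodule.mem_span_singleton_self x)
  have hin1 := (hallx f₂ hf2x).2
  have hally := allK_every hm hG hall he hy0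
  have hin2 := (hally f' hfy).2
  have hlf : lam (f' x) = 0 := by rw [← hf']; exact hφ'
  have hc := isIn_comm hin1 hin2 (by
    ext w
    simp [Module.End.mul_apply, hlf]
    ) (by
    ext w
    simp [Module.End.mul_apply, hlf]
    )
  convert hc using 1
  ext w
  simp [Module.End.mul_apply, hf2', hlam, hf', hlf]

end Flags

end Cfsg.Agent.Lib.Classical.Spread
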