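import Mathlib
import Cfsg.Agent.Lib.Classical.Spread.Flags

/-!
# Adjacent images of `K`-lines

If `M` moves some `K`-line off the `K`-lines, then it contains an image of a `K`-line meeting a
`K`-line in a hyperplane.
-/

set_option autoImplicit false

namespace Cfsg.Agent.Lib.Classical.Spread

open Module

section Kline
variable (F K : Type*) {V : Type*} [Field F] [Field K] [Algebra F K] [AddCommGroup V] [Module F V]
  [Module K V] [IsScalarTower F K V]

/-- The `K`-line through `w`, as an `F`-subspace. -/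
def kline (w : V) : Submodule F V := (Submodule.span K {w}).restrictScalars F

variable {F K}

theorem mem_kline {w x : V} : x ∈ kline F K w ↔ ∃ t : K, t • w = x := by
  simp [kline, Submodule.mem_span_singleton]

theorem smul_mem_kline (w : V) (t : K) : t • w ∈ kline F K w := mem_kline.mpr ⟨t, rfl⟩

theorem self_mem_kline (w : V) : w ∈ kline F K w := by simpa using smul_mem_kline (F := F) w (1 : K)

theorem mem_span_of_mem_kline {w x : V} (h : x ∈ kline F K w) : x ∈ Submodule.span K {w} := h

theorem finrank_kline {w : V} (hw : w ≠ 0) : finrank F (kline F K w) = finrank F K := by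
  have e : K ≃ₗ[K] (Submodule.span K {w}) := LinearEquiv.toSpanNonzeroSingleton K V w hw
  exact (e.restrictScalars F).finrank_eq.symm

end Kline

section Adj
variable {F K V : Type*} [Field F] [Field K] [Algebra F K] [AddCommGroup V] [Module F V]
  [Module K V] [IsScalarTower F K V]

/-- The image of a subspace under a unit. -/
abbrev umap (h : (Module.End F V)ˣ) (W : Submodule F V) : Submodule F V :=
  W.map (h.val : V →ₗ[F] V)

theorem inv_apply_apply (h : (Module.End F V)ˣ) (x : V) :
    (h⁻¹ : (Module.End F V)ˣ).val (h.val x) = x := by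
  have : ((h⁻¹ : (Module.End F V)ˣ).val * h.val) x = x := by rw [Units.inv_mul]; rfl
  exact this

theorem apply_inv_apply (h : (Module.End F V)ˣ) (x : V) :
    h.val ((h⁻¹ : (Module.End F V)ˣ).val x) = x := by
  have : (h.val * (h⁻¹ : (Module.End F V)ˣ).val) x = x := by rw [Units.mul_inv]; rfl
  exact this

theorem umap_inj (h : (Module.End F V)ˣ) : Function.Injective (h.val : V →ₗ[F] V) := by
  intro a b hab
  have h1 := congrArg (fun x => (h⁻¹ : (Module.End F V)ˣ).val x) hab
  simpa only [inv_apply_apply] using h1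

theorem finrank_umap (h : (Module.End F V)ˣ) (W : Submodule F V) :
    finrank F (umap h W) = finrank F W :=
  (Submodule.equivMapOfInjective _ (umap_inj h) W).finrank_eq.symm

/-- A functional separating: `f w = 0`, `f x₁ = 1`, `f x₂ ∉ F`. -/
theorem exists_sep [FiniteDimensional F K] (hr : 2 ≤ finrank F K) {w x₁ x₂ : V}
    (h1 : x₁ ∉ kline F K w) (h2 : ∀ s : F, x₂ - s • x₁ ∉ kline F K w) :
    ∃ f : V →ₗ[K] K, f w = 0 ∧ f x₁ = 1 ∧ f x₂ ∉ (algebraMap F K).range := by
  obtain ⟨f₁, hf1, hf1'⟩ := exists_func (Submodule.span K {w}) (x := x₁) h1 (1 : K)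
  have hf1w : f₁ w = 0 := hf1 w (Submodule.mem_span_singleton_self w)
  by_cases hc : f₁ x₂ ∈ (algebraMap F K).range
  · obtain ⟨s, hs⟩ := hc
    set y := x₂ - s • x₁ with hy
    have hfy : f₁ y = 0 := by
      rw [hy, map_sub, LinearMap.map_smul_of_tower, hf1', ← hs, Algebra.smul_def, mul_one, sub_self]
    have hymem : y ∉ Submodule.span K {w, x₁} := by
      intro hmem
      obtain ⟨a, b, hab⟩ := Submodule.mem_span_pair.mp hmem
      have hb : b = 0 := by
        have := hfy
        rw [← hab] at this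
        simpa [hf1w, hf1'] using this
      apply h2 s
      rw [← hy, ← hab, hb, zero_smul, add_zero]
      exact smul_mem_kline w a
    obtain ⟨f₂, hf2, hf2'⟩ := exists_func _ hymem (1 : K)
    have hf2w : f₂ w = 0 := hf2 w (Submodule.subset_span (by simp))
    have hf2x : f₂ x₁ = 0 := hf2 x₁ (Submodule.subset_span (by simp))
    have hf2x2 : f₂ x₂ = 1 := by
      have : x₂ = y + s • x₁ := by rw [hy]; abel
      rw [this, map_add, LinearMap.map_smul_of_tower, hf2', hf2x, smul_zero, add_zero]
    obtain ⟨k₀, hk₀⟩ : ∃ k₀ : K, k₀ ∉ (algebraMap F K).range := by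
      by_contra h
      push Not at h
      have hs : Function.Surjective (algebraMap F K) := fun x => h x
      have : finrank F K = 1 :=
        (Algebra.toModule (R := F) (A := K)) |> fun _ => by
          have e := (AlgEquiv.ofBijective (Algebra.ofId F K) ⟨(algebraMap F K).injective, hs⟩)
          have := e.toLinearEquiv.finrank_eq
          simpa using this.symm
      omega
    refine ⟨f₁ + k₀ • f₂, by simp [hf1w, hf2w], by simp [hf1', hf2x], ?_⟩
    intro hmem
    apply hk₀
    have hval : (f₁ + k₀ • f₂) x₂ = algebraMap F K s + k₀ := by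
      simp [hs, hf2x2]
    rw [hval] at hmem
    have := (algebraMap F K).range.sub_mem hmem ⟨s, rfl⟩
    simpa using this
  · exact ⟨f₁, hf1w, hf1', hc⟩

/-- `d`-adjacency. -/
def Adj (K : Type*) [Field K] [Algebra F K] [Module K V] [IsScalarTower F K V]
    (M : Subgroup (Module.End F V)ˣ) (d : ℕ) : Prop :=
  ∃ (w z : V) (h : (Module.End F V)ˣ), h ∈ M ∧ w ≠ 0 ∧ z ≠ 0 ∧
    umap h (kline F K z) ≠ kline F K w ∧ d ≤ finrank F ↥(umap h (kline F K z) ⊓ kline F K w)

variable {M : Subgroup (Module.End F V)ˣ}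

theorem adj_start {g : (Module.End F V)ˣ} (hg : g ∈ M) {v : V} (hv : v ≠ 0) {κ : K}
    (hκ : g.val (κ • v) ∉ kline F K (g.val v)) [FiniteDimensional F K] [FiniteDimensional K V] :
    Adj K M 1 := by
  have : FiniteDimensional F V := FiniteDimensional.trans F K V
  have hgv : g.val v ≠ 0 := by
    intro h
    apply hv
    exact umap_inj g (a₁ := v) (a₂ := 0) (by rw [h, map_zero])
  refine ⟨g.val v, v, g, hg, hgv, hv, ?_, ?_⟩
  · intro h
    apply hκ
    rw [← h]
    exact Submodule.mem_map_of_mem (smul_mem_kline v κ)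
  · rw [Nat.succ_le_iff, Module.finrank_pos_iff_exists_ne_zero]
    refine ⟨⟨g.val v, Submodule.mem_map_of_mem (self_mem_kline v), self_mem_kline _⟩, ?_⟩
    intro h
    exact hgv (congrArg Subtype.val h)

/-- The inductive step of adjacency. -/
theorem adj_step [FiniteDimensional F K] [FiniteDimensional K V] (hr : (finrank F K).Prime)
    (hG : Good F K M) {d : ℕ} (hd : 1 ≤ d) (hd2 : d + 1 < finrank F K) (hA : Adj K M d) :
    Adj K M (d + 1) := by
  classical
  have hfin : FiniteDimensional F V := FiniteDimensional.trans F K V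
  obtain ⟨w, z, h, hh, hw, hz, hne, hfr⟩ := hA
  set W := umap h (kline F K z) with hW
  set P := W ⊓ kline F K w with hP
  by_cases hbig : d + 1 ≤ finrank F ↥P
  · exact ⟨w, z, h, hh, hw, hz, hne, hbig⟩
  have hPd : finrank F ↥P = d := by omega
  have hWr : finrank F ↥W = finrank F K := by
    rw [hW, finrank_umap, finrank_kline hz]
  -- `x₁`, `x₂`
  have hPW : P ≤ W := inf_le_left
  obtain ⟨x₁, hx₁W, hx₁P⟩ : ∃ x ∈ W, x ∉ P := by
    by_contra hc
    push Not at hc
    have : W ≤ P := hc
    have : finrank F ↥W ≤ finrank F ↥P := Submodule.finrank_mono this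
    omega
  have hx₁l : x₁ ∉ kline F K w := fun hl => hx₁P ⟨hx₁W, hl⟩
  obtain ⟨x₂, hx₂W, hx₂P⟩ : ∃ x ∈ W, x ∉ P ⊔ Submodule.span F {x₁} := by
    by_contra hc
    push Not at hc
    have h1 : W ≤ P ⊔ Submodule.span F {x₁} := hc
    have h2 := Submodule.finrank_mono h1
    rw [Submodule.finrank_sup_span_singleton hx₁P] at h2
    omega
  have hx₂l : ∀ s : F, x₂ - s • x₁ ∉ kline F K w := by
    intro s hl
    apply hx₂P
    have hin : x₂ - s • x₁ ∈ P := ⟨W.sub_mem hx₂W (W.smul_mem s hx₁W), hl⟩
    have : x₂ = (x₂ - s • x₁) + s • x₁ := by abel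
    rw [this]
    exact Submodule.add_mem_sup hin (Submodule.smul_mem _ _ (Submodule.mem_span_singleton_self x₁))
  obtain ⟨f, hfw, hfx₁, hfx₂⟩ := exists_sep hr.two_le hx₁l hx₂l
  -- `D°`
  set D : Submodule F K :=
    W.comap ((LinearMap.toSpanSingleton K V w).restrictScalars F) with hD
  have hDmem : ∀ t : K, t ∈ D ↔ t • w ∈ W := fun t => by simp [hD]
  have hD0 : D ≠ ⊥ := by
    have hpos : 0 < finrank F ↥P := by omega
    obtain ⟨⟨p, hp⟩, hp0⟩ := Module.finrank_pos_iff_exists_ne_zero.mp hpos
    obtain ⟨c, hc⟩ := mem_kline.mp hp.2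
    intro hbot
    have hcD : c ∈ D := (hDmem c).mpr (by rw [hc]; exact hp.1)
    rw [hbot, Submodule.mem_bot] at hcD
    apply hp0
    apply Subtype.ext
    simpa [hcD] using hc.symm
  have hD1 : D ≠ ⊤ := by
    intro htop
    apply hne
    have hle : kline F K w ≤ W := by
      intro y hy
      obtain ⟨c, rfl⟩ := mem_kline.mp hy
      exact (hDmem c).mp (by rw [htop]; trivial)
    apply (Submodule.eq_of_le_of_finrank_eq hle _).symm
    rw [hWr, finrank_kline hw]
  obtain ⟨d₀, hd₀, hd₀'⟩ : ∃ d₀ ∈ D, f x₂ * d₀ ∉ D := by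
    by_contra hc
    push Not at hc
    exact hfx₂ (mem_base_of_stable F hr hD0 hD1 hc)
  -- the `K`-transvection
  have hfw' : (d₀ • f) w = 0 := by simp [hfw]
  have hT := hG.trans (d₀ • f) w hfw'
  set R := sqU (kt F (d₀ • f) w) hT.sq with hR
  have hRapp : ∀ x, R.val x = x + (d₀ * f x) • w := fun x => by
    simp [hR]
  have hRx₁ : R.val x₁ = x₁ + d₀ • w := by
    rw [hRapp, hfx₁, mul_one]
  have hRx₁W : R.val x₁ ∈ W := by
    rw [hRx₁]
    exact W.add_mem hx₁W ((hDmem d₀).mp hd₀)
  have hRx₂ : R.val x₂ ∉ W := by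
    rw [hRapp]
    intro hmem
    apply hd₀'
    rw [hDmem, mul_comm]
    have := W.sub_mem hmem hx₂W
    simpa using this
  have hRP : ∀ p ∈ P, R.val p = p := by
    intro p hp
    obtain ⟨c, hc⟩ := mem_kline.mp hp.2
    rw [hRapp, ← hc]
    simp [hfw]
  set h' := h⁻¹ * R * h with hh'
  have hh'M : h' ∈ M := M.mul_mem (M.mul_mem (M.inv_mem hh) hT.mem) hh
  have hh'app : ∀ x, h'.val x = (h⁻¹ : (Module.End F V)ˣ).val (R.val (h.val x)) := fun x => rfl
  refine ⟨z, z, h', hh'M, hz, hz, ?_, ?_⟩
  · -- `W'' ≠ kline z`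
    intro heq
    apply hRx₂
    obtain ⟨a, ha, hax⟩ := hx₂W
    have h1 : h'.val a ∈ kline F K z := by
      rw [← heq]
      exact Submodule.mem_map_of_mem ha
    have h2 : h.val (h'.val a) ∈ W := Submodule.mem_map_of_mem h1
    rw [hh'app, apply_inv_apply] at h2
    have hax' : h.val a = x₂ := hax
    rwa [hax'] at h2
  · -- the dimension
    have hRx₁P : R.val x₁ ∉ P := by
      intro hmem
      apply hx₁l
      have h1 : R.val x₁ ∈ kline F K w := hmem.2
      rw [hRx₁] at h1
      have := (kline F K w).sub_mem h1 (smul_mem_kline (F := F) w d₀)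
      simpa using this
    have hle : P ⊔ Submodule.span F {R.val x₁} ≤
        umap h (umap h' (kline F K z) ⊓ kline F K z) := by
      have key : ∀ y ∈ W, (R.val y ∈ W) →
          R.val y ∈ umap h (umap h' (kline F K z) ⊓ kline F K z) := by
        intro y hy hRy
        obtain ⟨a, ha, hax⟩ := hy
        have hax' : h.val a = y := hax
        obtain ⟨b, hb, hbx⟩ := hRy
        have hbx' : h.val b = R.val y := hbx
        refine ⟨b, ⟨⟨a, ha, ?_⟩, hb⟩, hbx'⟩
        change h'.val a = b
        rw [hh'app, hax', ← hbx', inv_apply_apply]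
      apply sup_le
      · intro p hp
        have := key p hp.1 (by rw [hRP p hp]; exact hp.1)
        rwa [hRP p hp] at this
      · rw [Submodule.span_singleton_le_iff_mem]
        exact key x₁ hx₁W hRx₁W
    have := Submodule.finrank_mono hle
    rw [Submodule.finrank_sup_span_singleton hRx₁P, finrank_umap, hPd] at this
    omega

end Adj

end Cfsg.Agent.Lib.Classical.Spread
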