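import Mathlib
import Cfsg.Agent.Lib.Classical.Spread.Adjacent

/-!
# The normal form of an adjacent pair, and the root family
-/

set_option autoImplicit false

namespace Cfsg.Agent.Lib.Classical.Spread

open Module

variable {F K V : Type*} [Field F] [Field K] [Algebra F K] [AddCommGroup V] [Module F V]
  [Module K V] [IsScalarTower F K V]

/-- `M` contains an `F`-transvection. -/
def HasTv (M : Subgroup (Module.End F V)ˣ) : Prop :=
  ∃ (φ : V →ₗ[F] F) (e : V), φ ≠ 0 ∧ e ≠ 0 ∧ IsIn M (fl φ e)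

/-- Iterating the adjacency step. -/
theorem adj_final {M : Subgroup (Module.End F V)ˣ} [FiniteDimensional F K] [FiniteDimensional K V]
    (hr : (finrank F K).Prime) (hG : Good F K M) (h1 : Adj K M 1) : Adj K M (finrank F K - 1) := by
  have h2 := hr.two_le
  obtain ⟨k, hk⟩ : ∃ k, finrank F K = k + 2 := ⟨finrank F K - 2, by omega⟩
  rw [hk]
  have hind : ∀ j, j ≤ k → Adj K M (j + 1) := by
    intro j
    induction j with
    | zero => intro _; simpa using h1
    | succ j ih =>
      intro hj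
      exact adj_step hr hG (by omega) (by omega) (ih (by omega))
  have := hind k le_rfl
  simpa using this

variable (F K V) in
/-- The normal form of an adjacent pair: `W = h(K z)`, `W ∩ K v₁ = D v₁` a hyperplane,
`W = D v₁ + F v₂`, together with a `K`-functional `f'` defining the root family at `W`. -/
structure NF (M : Subgroup (Module.End F V)ˣ) where
  W : Submodule F V
  v₁ : V
  v₂ : V
  D : Submodule F K
  π : K →ₗ[F] F
  u : K
  h : (Module.End F V)ˣ
  z : V
  f' : V →ₗ[K] K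
  h_mem : h ∈ M
  z_ne : z ≠ 0
  W_eq : W = umap h (kline F K z)
  v₁_ne : v₁ ≠ 0
  v₂_mem : v₂ ∈ W
  v₂_not : v₂ ∉ Submodule.span K {v₁}
  D_mem : ∀ t : K, t ∈ D ↔ t • v₁ ∈ W
  π_ker : ∀ t : K, π t = 0 ↔ t ∈ D
  π_u : π u = 1
  one_mem : (1 : K) ∈ D
  coord : ∀ y ∈ W, ∃ t ∈ D, ∃ s : F, y = t • v₁ + s • v₂
  f'_z : f' z = 0
  f'_u : f' ((h⁻¹ : (Module.End F V)ˣ).val (u • v₁)) = 1

/-- From adjacency to the normal form. -/
theorem exists_nf {M : Subgroup (Module.End F V)ˣ} [FiniteDimensional F K] [FiniteDimensional K V]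
    (hr : 2 ≤ finrank F K) (hA : Adj K M (finrank F K - 1)) : Nonempty (NF F K V M) := by
  classical
  have hfin : FiniteDimensional F V := FiniteDimensional.trans F K V
  obtain ⟨w, z, h, hh, hw, hz, hne, hfr⟩ := hA
  set W := umap h (kline F K z) with hW
  have hWr : finrank F ↥W = finrank F K := by
    rw [hW, finrank_umap, finrank_kline hz]
  -- the element `d₀`
  have hPpos : 0 < finrank F ↥(W ⊓ kline F K w) := by omega
  obtain ⟨⟨p, hp⟩, hp0⟩ := Module.finrank_pos_iff_exists_ne_zero.mp hPpos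
  obtain ⟨d₀, hd₀⟩ := mem_kline.mp hp.2
  have hd₀0 : d₀ ≠ 0 := by
    rintro rfl
    apply hp0
    apply Subtype.ext
    simpa using hd₀.symm
  set v₁ := d₀ • w with hv₁
  have hv₁0 : v₁ ≠ 0 := smul_ne_zero hd₀0 hw
  have hv₁W : v₁ ∈ W := by rw [hd₀]; exact hp.1
  have hline : kline F K v₁ = kline F K w := by
    ext x
    simp only [mem_kline]
    constructor
    · rintro ⟨t, rfl⟩
      exact ⟨t * d₀, by rw [hv₁, smul_smul]⟩
    · rintro ⟨t, rfl⟩
      refine ⟨t * d₀⁻¹, ?_⟩
      rw [hv₁, smul_smul, mul_assoc, inv_mul_cancel₀ hd₀0, mul_one]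
  rw [← hline] at hne hfr
  set P := W ⊓ kline F K v₁ with hP
  have hPlt : finrank F ↥P < finrank F K := by
    by_contra hc
    push Not at hc
    have hle : P ≤ W := inf_le_left
    have heq : P = W := Submodule.eq_of_le_of_finrank_le hle (by omega)
    have hle2 : W ≤ kline F K v₁ := by
      rw [← heq]; exact inf_le_right
    apply hne
    apply Submodule.eq_of_le_of_finrank_eq hle2
    rw [hWr, finrank_kline hv₁0]
  have hPr : finrank F ↥P = finrank F K - 1 := by omega
  -- `D`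
  set D : Submodule F K :=
    W.comap ((LinearMap.toSpanSingleton K V v₁).restrictScalars F) with hD
  have hDmem : ∀ t : K, t ∈ D ↔ t • v₁ ∈ W := fun t => by simp [hD]
  have hDr : finrank F ↥D = finrank F K - 1 := by
    have hinj : Function.Injective ((LinearMap.toSpanSingleton K V v₁).restrictScalars F) := by
      intro a b hab
      have : a • v₁ = b • v₁ := hab
      exact smul_left_injective K hv₁0 this
    have hmap : D.map ((LinearMap.toSpanSingleton K V v₁).restrictScalars F) = P := by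
      ext x
      constructor
      · rintro ⟨t, ht, rfl⟩
        exact ⟨(hDmem t).mp ht, smul_mem_kline v₁ t⟩
      · rintro ⟨hx1, hx2⟩
        obtain ⟨t, rfl⟩ := mem_kline.mp hx2
        exact ⟨t, (hDmem t).mpr hx1, rfl⟩
    rw [← hPr, ← hmap]
    exact (Submodule.equivMapOfInjective _ hinj D).finrank_eq
  -- `π`, `u`
  have hD1 : D ≠ ⊤ := by
    intro htop
    have := finrank_top F K
    rw [← htop, hDr] at this
    omega
  obtain ⟨u, hu⟩ : ∃ u, u ∉ D := by
    by_contra hc
    push Not at hc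
    exact hD1 (eq_top_iff.mpr fun x _ => hc x)
  obtain ⟨π, hπ, hπu⟩ := exists_func D hu (1 : F)
  have hker : LinearMap.ker π = D := by
    have hle : D ≤ LinearMap.ker π := fun x hx => hπ x hx
    have hlt : finrank F ↥(LinearMap.ker π) ≤ finrank F K - 1 := by
      have h1 := LinearMap.finrank_range_add_finrank_ker π
      have h2 : finrank F ↥(LinearMap.range π) = 1 := by
        have : LinearMap.range π = ⊤ := by
          rw [LinearMap.range_eq_top]
          intro s
          exact ⟨s • u, by simp [hπu]⟩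
        rw [this, finrank_top, finrank_self]
      omega
    exact (Submodule.eq_of_le_of_finrank_le hle (by omega)).symm
  -- `v₂`
  have hPW : P ≤ W := inf_le_left
  obtain ⟨v₂, hv₂W, hv₂P⟩ : ∃ x ∈ W, x ∉ P := by
    by_contra hc
    push Not at hc
    have : W ≤ P := hc
    have := Submodule.finrank_mono this
    omega
  have hv₂l : v₂ ∉ Submodule.span K {v₁} := fun hl => hv₂P ⟨hv₂W, hl⟩
  have hsup : P ⊔ Submodule.span F {v₂} = W := by
    apply Submodule.eq_of_le_of_finrank_le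
    · apply sup_le hPW
      rw [Submodule.span_singleton_le_iff_mem]
      exact hv₂W
    · rw [Submodule.finrank_sup_span_singleton hv₂P, hPr, hWr]
      omega
  have huW : u • v₁ ∉ W := fun hc => hu ((hDmem u).mpr hc)
  have hun : (h⁻¹ : (Module.End F V)ˣ).val (u • v₁) ∉ Submodule.span K {z} := by
    intro hc
    apply huW
    have : h.val ((h⁻¹ : (Module.End F V)ˣ).val (u • v₁)) ∈ W :=
      Submodule.mem_map_of_mem (show _ ∈ kline F K z from hc)
    rwa [apply_inv_apply] at this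
  obtain ⟨f', hf', hf'u⟩ := exists_func _ hun (1 : K)
  refine ⟨{ W := W, v₁ := v₁, v₂ := v₂, D := D, π := π, u := u, h := h, z := z, f' := f',
            h_mem := hh, z_ne := hz, W_eq := rfl, v₁_ne := hv₁0, v₂_mem := hv₂W, v₂_not := hv₂l,
            D_mem := hDmem, π_ker := ?_, π_u := hπu, one_mem := ?_, coord := ?_,
            f'_z := hf' z (Submodule.mem_span_singleton_self z), f'_u := hf'u }⟩
  · intro t
    rw [← hker, LinearMap.mem_ker]
  · rw [hDmem, one_smul]; exact hv₁W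
  · intro y hy
    rw [← hsup] at hy
    obtain ⟨a, ha, b, hb, rfl⟩ := Submodule.mem_sup.mp hy
    obtain ⟨s, rfl⟩ := Submodule.mem_span_singleton.mp hb
    obtain ⟨t, rfl⟩ := mem_kline.mp ha.2
    exact ⟨t, (hDmem t).mpr ha.1, s, rfl⟩

namespace NF

variable {M : Subgroup (Module.End F V)ˣ} (N : NF F K V M)

/-- The root family at `W`. -/
def β (c : K) : Module.End F V :=
  N.h.val * kt F (c • N.f') N.z * (N.h⁻¹ : (Module.End F V)ˣ).val

theorem β_apply (c : K) (x : V) :
    N.β c x = N.h.val ((c * N.f' ((N.h⁻¹ : (Module.End F V)ˣ).val x)) • N.z) := by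
  simp [β, Module.End.mul_apply]

theorem β_isIn (hG : Good F K M) (c : K) : IsIn M (N.β c) :=
  isIn_conj (hG.trans (c • N.f') N.z (by simp [N.f'_z])) N.h N.h_mem

/-- Membership in `W`. -/
theorem mem_W_iff {x : V} : x ∈ N.W ↔ ∃ c : K, N.h.val (c • N.z) = x := by
  rw [N.W_eq]
  constructor
  · rintro ⟨a, ha, rfl⟩
    obtain ⟨c, rfl⟩ := mem_kline.mp ha
    exact ⟨c, rfl⟩
  · rintro ⟨c, rfl⟩
    exact Submodule.mem_map_of_mem (smul_mem_kline _ c)

theorem β_kill (c : K) {x : V} (hx : x ∈ N.W) : N.β c x = 0 := by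
  obtain ⟨a, rfl⟩ := N.mem_W_iff.mp hx
  rw [β_apply, inv_apply_apply]
  simp [N.f'_z]

theorem β_mem (c : K) (x : V) : N.β c x ∈ N.W := by
  rw [β_apply]
  exact N.mem_W_iff.mpr ⟨_, rfl⟩

theorem β_u (c : K) : N.β c (N.u • N.v₁) = N.h.val (c • N.z) := by
  rw [β_apply, N.f'_u, mul_one]

theorem β_add (a b : K) : N.β (a + b) = N.β a + N.β b := by
  ext x
  simp only [β_apply, LinearMap.add_apply, add_mul, add_smul, map_add]

/-- `β` on the line `K v₁`. -/
theorem β_line (c t : K) : N.β c (t • N.v₁) = N.π t • N.h.val (c • N.z) := by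
  have hmem : t - (N.π t) • N.u ∈ N.D := by
    rw [← N.π_ker]
    simp [N.π_u]
  have hW : (t - (N.π t) • N.u) • N.v₁ ∈ N.W := (N.D_mem _).mp hmem
  have : t • N.v₁ = (t - (N.π t) • N.u) • N.v₁ + (N.π t) • (N.u • N.v₁) := by
    rw [sub_smul, smul_assoc]; abel
  rw [this, map_add, N.β_kill c hW, zero_add, map_smul, β_u]

theorem β_surj {c : K} (hc : c ≠ 0) {y : V} (hy : y ∈ N.W) : ∃ x, N.β c x = y := by
  obtain ⟨a, rfl⟩ := N.mem_W_iff.mp hy
  refine ⟨N.h.val ((a * c⁻¹) • (N.h⁻¹ : (Module.End F V)ˣ).val (N.u • N.v₁)), ?_⟩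
  have h1 : N.f' ((a * c⁻¹) • (N.h⁻¹ : (Module.End F V)ˣ).val (N.u • N.v₁)) = a * c⁻¹ := by
    rw [LinearMap.map_smul, N.f'_u, smul_eq_mul, mul_one]
  rw [β_apply, inv_apply_apply, h1]
  congr 2
  field_simp

theorem β_sq (c d : K) : N.β c * N.β d = 0 := by
  ext x
  simp only [Module.End.mul_apply, LinearMap.zero_apply]
  exact N.β_kill c (N.β_mem d x)

theorem exists_param {e : V} (he : e ∈ N.W) : ∃ c : K, N.h.val (c • N.z) = e :=
  N.mem_W_iff.mp he

theorem param_ne {c : K} {e : V} (he : N.h.val (c • N.z) = e) (he0 : e ≠ 0) : c ≠ 0 := by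
  rintro rfl
  apply he0
  rw [← he]
  simp

/-- `v₂` outside `K v₁`, and the consequent functional `f`. -/
theorem exists_f : ∃ f : V →ₗ[K] K, f N.v₁ = 0 ∧ f N.v₂ = 1 := by
  obtain ⟨f, hf, hf'⟩ := exists_func _ N.v₂_not (1 : K)
  exact ⟨f, hf _ (Submodule.mem_span_singleton_self _), hf'⟩

theorem v₂_ne : N.v₂ ≠ 0 := by
  intro h
  apply N.v₂_not
  rw [h]
  exact Submodule.zero_mem _

theorem v₁_not : N.v₁ ∉ Submodule.span K {N.v₂} := by
  intro hmem
  obtain ⟨t, ht⟩ := Submodule.mem_span_singleton.mp hmem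
  have ht0 : t ≠ 0 := by
    rintro rfl
    exact N.v₁_ne (by simpa using ht.symm)
  apply N.v₂_not
  apply Submodule.mem_span_singleton.mpr
  exact ⟨t⁻¹, by rw [← ht, smul_smul, inv_mul_cancel₀ ht0, one_smul]⟩

/-- The dual functional: `f₁ v₁ = 1`, `f₁ v₂ = 0`. -/
theorem exists_f₁ : ∃ f : V →ₗ[K] K, f N.v₁ = 1 ∧ f N.v₂ = 0 := by
  obtain ⟨f, hf, hf'⟩ := exists_func _ N.v₁_not (1 : K)
  exact ⟨f, hf', hf _ (Submodule.mem_span_singleton_self _)⟩

end NF

end Cfsg.Agent.Lib.Classical.Spread
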