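import Mathlib
import Cfsg.Agent.Lib.Classical.Spread.NF

/-!
# Producing a transvection from the normal form: the generic cases
-/

set_option autoImplicit false

namespace Cfsg.Agent.Lib.Classical.Spread

open Module

variable {F K V : Type*} [Field F] [Field K] [Algebra F K] [AddCommGroup V] [Module F V]
  [Module K V] [IsScalarTower F K V]

namespace NF

variable {M : Subgroup (Module.End F V)ˣ} (N : NF F K V M)

section
variable {f : V →ₗ[K] K}

/-- `f` is `F`-valued on `W`. -/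
theorem f_mem (hf1 : f N.v₁ = 0) (hf2 : f N.v₂ = 1) {y : V} (hy : y ∈ N.W) :
    f y ∈ (algebraMap F K).range := by
  obtain ⟨t, _, s, rfl⟩ := N.coord y hy
  refine ⟨s, ?_⟩
  rw [map_add, LinearMap.map_smul_of_tower, LinearMap.map_smul_of_tower]
  simp [hf1, hf2, Algebra.smul_def]

/-- A retraction of `K` onto `F`. -/
theorem exists_τ : ∃ τ : K →ₗ[F] F, τ 1 = 1 := by
  obtain ⟨lam, -, hlam⟩ := exists_func (⊥ : Submodule F K) (x := (1 : K)) (by simp) (1 : F)
  exact ⟨lam, hlam⟩

theorem alg_τ {τ : K →ₗ[F] F} (hτ : τ 1 = 1) {a : K} (ha : a ∈ (algebraMap F K).range) :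
    algebraMap F K (τ a) = a := by
  obtain ⟨s, rfl⟩ := ha
  have : τ (algebraMap F K s) = s := by
    rw [Algebra.algebraMap_eq_smul_one, map_smul, hτ, smul_eq_mul, mul_one]
  rw [this]

theorem π_alg (t : K) (s : F) : N.π (t * algebraMap F K s) = s * N.π t := by
  rw [mul_comm, ← Algebra.smul_def, map_smul, smul_eq_mul]

theorem f_coord {y : V} (hy : y ∈ N.W) (hf1 : f N.v₁ = 0) (g : V →ₗ[K] K) (hg1 : g N.v₁ = 0)
    (hg2 : g N.v₂ = 0) : g y = 0 := by
  obtain ⟨t, _, s, rfl⟩ := N.coord y hy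
  rw [map_add, LinearMap.map_smul_of_tower, LinearMap.map_smul_of_tower]
  simp [hg1, hg2]

include N in
/-- **The case `2 ≠ 0`.** -/
theorem hasTv_of_two_ne (hG : Good F K M) (h2 : (2 : F) ≠ 0) : HasTv M := by
  obtain ⟨f, hf1, hf2⟩ := N.exists_f
  obtain ⟨τ, hτ⟩ := exists_τ (F := F) (K := K)
  have hv₁W : N.v₁ ∈ N.W := by simpa using (N.D_mem 1).mp N.one_mem
  obtain ⟨c, hc⟩ := N.exists_param hv₁W
  have hc0 : c ≠ 0 := N.param_ne hc N.v₁_ne
  set β := N.β c with hβdef
  have hβin : IsIn M β := N.β_isIn hG c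
  have hline : ∀ t : K, β (t • N.v₁) = N.π t • N.v₁ := fun t => by
    rw [hβdef, N.β_line, hc]
  have hkill : ∀ x ∈ N.W, β x = 0 := fun x hx => N.β_kill c hx
  have hmem : ∀ x, β x ∈ N.W := fun x => N.β_mem c x
  -- `ω`
  set ω : V →ₗ[F] F := τ.comp ((f.restrictScalars F).comp β) with hω
  have hωalg : ∀ x, algebraMap F K (ω x) = f (β x) := fun x =>
    alg_τ hτ (N.f_mem hf1 hf2 (hmem x))
  set a : Module.End F V := kt F (N.u • f) N.v₁ with ha
  have hain : IsIn M a := hG.trans _ _ (by simp [hf1])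
  set g := sqU a hain.sq with hg
  set β' : Module.End F V := g.val * β * (g⁻¹ : (Module.End F V)ˣ).val with hβ'
  have hβ'in : IsIn M β' := isIn_conj hβin g hain.mem
  have hβv₁ : β N.v₁ = 0 := hkill _ hv₁W
  have hβ'app : ∀ x, β' x = β x - N.π (N.u * f x) • N.v₁ + (N.u * f (β x)) • N.v₁ := by
    intro x
    have h1 : (g⁻¹ : (Module.End F V)ˣ).val x = x - (N.u * f x) • N.v₁ := by
      simp [hg, ha, sub_eq_add_neg]
    have h2' : ∀ y, g.val y = y + (N.u * f y) • N.v₁ := fun y => by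
      simp [hg, ha]
    have h3 : β (x - (N.u * f x) • N.v₁) = β x - N.π (N.u * f x) • N.v₁ := by
      rw [map_sub, hline]
    simp only [hβ', Module.End.mul_apply, h1, h3, h2']
    have h4 : f (β x - N.π (N.u * f x) • N.v₁) = f (β x) := by
      rw [map_sub, LinearMap.map_smul_of_tower, hf1]; simp
    rw [h4]
  have hπω : ∀ x, N.π (N.u * f (β x)) = ω x := by
    intro x
    rw [← hωalg, π_alg, N.π_u, mul_one]
  have hββ : ∀ x, β (β x) = 0 := fun x => hkill _ (hmem x)
  have h1 : ∀ x, β (β' x) = ω x • N.v₁ := by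
    intro x
    rw [hβ'app, map_add, map_sub, hββ, LinearMap.map_smul_of_tower, hβv₁, hline, hπω]
    simp
  have h2' : ∀ x, β' (β x) = -(ω x • N.v₁) := by
    intro x
    rw [hβ'app, hββ, hπω]
    simp
  have hβ'v₁ : β' N.v₁ = 0 := by
    rw [hβ'app, hβv₁, hf1]
    simp
  have hc' := isIn_comm hβin hβ'in (by
    ext x
    simp only [Module.End.mul_apply, LinearMap.zero_apply, h2', map_neg, LinearMap.map_smul_of_tower, hβv₁]
    simp) (by
    ext x
    simp only [Module.End.mul_apply, LinearMap.zero_apply, h1, LinearMap.map_smul_of_tower, hβ'v₁]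
    simp)
  refine ⟨(2 : F) • ω, N.v₁, ?_, N.v₁_ne, ?_⟩
  · obtain ⟨x, hx⟩ := N.β_surj hc0 N.v₂_mem
    intro h0
    have h3 := LinearMap.congr_fun h0 x
    have h4 : ω x = 1 := by
      apply (algebraMap F K).injective
      rw [hωalg, hβdef, hx, hf2, map_one]
    simp [h4, h2] at h3
  · convert hc' using 1
    ext x
    simp only [fl_apply, LinearMap.smul_apply, LinearMap.sub_apply, Module.End.mul_apply, h1, h2',
      smul_eq_mul, two_mul, add_smul, sub_neg_eq_add]

/-- The commutator of a root element at `e ∈ K v₁` with a `K`-transvection at `v₁`. -/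
theorem comm_D (hG : Good F K M) (hf1 : f N.v₁ = 0) (hf2 : f N.v₂ = 1) (c d d' : K)
    (hc : N.h.val (c • N.z) = d • N.v₁) (hd' : d' ∈ N.D) :
    IsIn M (N.β c * kt F (d' • f) N.v₁ - kt F (d' • f) N.v₁ * N.β c) := by
  have hε : IsIn M (kt F (d' • f) N.v₁) := hG.trans _ _ (by simp [hf1])
  have hline : ∀ t : K, N.β c (t • N.v₁) = N.π t • (d • N.v₁) := fun t => by
    rw [N.β_line, hc]
  have hfe : f (d • N.v₁) = 0 := by simp [hf1]
  refine isIn_comm (N.β_isIn hG c) hε ?_ ?_
  · ext x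
    obtain ⟨s, hs⟩ := N.f_mem hf1 hf2 (N.β_mem c x)
    have h0 : N.π (d' * algebraMap F K s) = 0 := by
      rw [π_alg, (N.π_ker d').mpr hd', mul_zero]
    simp only [Module.End.mul_apply, kt_apply, LinearMap.smul_apply, smul_eq_mul,
      LinearMap.zero_apply, hline, ← hs, h0, zero_smul]
  · ext x
    simp only [Module.End.mul_apply, kt_apply, LinearMap.smul_apply, smul_eq_mul,
      LinearMap.zero_apply, hline, LinearMap.map_smul_of_tower]
    simp [hf1]

theorem comm_D_apply (hf1 : f N.v₁ = 0) (c d d' : K) (hc : N.h.val (c • N.z) = d • N.v₁) (x : V) :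
    (N.β c * kt F (d' • f) N.v₁ - kt F (d' • f) N.v₁ * N.β c) x
      = N.π (d' * f x) • (d • N.v₁) - (d' * f (N.β c x)) • N.v₁ := by
  simp only [LinearMap.sub_apply, Module.End.mul_apply, kt_apply, LinearMap.smul_apply, smul_eq_mul]
  rw [N.β_line, hc]

/-- Without transvections, `f ∘ β` agrees with `π (d f ·)`. -/
theorem agree (hG : Good F K M) (hno : ¬ HasTv M) (hf1 : f N.v₁ = 0) (hf2 : f N.v₂ = 1) {c d : K}
    (hc : N.h.val (c • N.z) = d • N.v₁) (hd : d ∈ N.D) (hd0 : d ≠ 0) (x : V) :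
    algebraMap F K (N.π (d * f x)) = f (N.β c x) := by
  obtain ⟨τ, hτ⟩ := exists_τ (F := F) (K := K)
  set ω : V →ₗ[F] F := τ.comp ((f.restrictScalars F).comp (N.β c)) with hω
  have hωalg : ∀ x, algebraMap F K (ω x) = f (N.β c x) := fun x =>
    alg_τ hτ (N.f_mem hf1 hf2 (N.β_mem c x))
  have hcomm := N.comm_D hG hf1 hf2 c d d hc hd
  have hφ : lf N.π (d • f) - ω = 0 := by
    by_contra hne
    apply hno
    refine ⟨_, d • N.v₁, hne, smul_ne_zero hd0 N.v₁_ne, ?_⟩
    convert hcomm using 1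
    ext y
    rw [N.comm_D_apply hf1 c d d hc y]
    simp only [fl_apply, LinearMap.sub_apply, lf_apply, LinearMap.smul_apply, smul_eq_mul, sub_smul]
    congr 1
    rw [← hωalg, mul_smul, algebraMap_smul, smul_comm]
  have := LinearMap.congr_fun hφ x
  simp only [LinearMap.sub_apply, lf_apply, LinearMap.smul_apply, smul_eq_mul,
    LinearMap.zero_apply, sub_eq_zero] at this
  rw [this, hωalg]

/-- Without transvections, `V = K v₁ + K v₂`. -/
theorem m2 (hG : Good F K M) (hno : ¬ HasTv M) (g : V →ₗ[K] K) (hg1 : g N.v₁ = 0)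
    (hg2 : g N.v₂ = 0) : g = 0 := by
  obtain ⟨f, hf1, hf2⟩ := N.exists_f
  have hv₁W : N.v₁ ∈ N.W := by simpa using (N.D_mem 1).mp N.one_mem
  obtain ⟨c, hc⟩ := N.exists_param hv₁W
  have hc' : N.h.val (c • N.z) = (1 : K) • N.v₁ := by rw [hc, one_smul]
  have hzero : ∀ x, N.π (g x) = 0 := by
    intro x
    have a1 := N.agree hG hno hf1 hf2 hc' N.one_mem one_ne_zero x
    have a2 := N.agree hG hno (f := f + g) (by simp [hf1, hg1]) (by simp [hf2, hg2]) hc' N.one_mem
      one_ne_zero x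
    have hgβ : g (N.β c x) = 0 := N.f_coord (N.β_mem c x) hf1 g hg1 hg2
    simp only [LinearMap.add_apply, hgβ, add_zero] at a2
    rw [← a1] at a2
    have := (algebraMap F K).injective a2
    simpa using this
  ext x
  by_contra hne
  have := hzero ((N.u / g x) • x)
  rw [LinearMap.map_smul, smul_eq_mul, div_mul_cancel₀ _ hne, N.π_u] at this
  exact one_ne_zero this

end

end NF

end Cfsg.Agent.Lib.Classical.Spread
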