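import Mathlib
import Cfsg.Agent.Lib.Classical.Spread.Cases

set_option autoImplicit false

namespace Cfsg.Agent.Lib.Classical.Spread

open Module

section TraceLemma
variable {F K : Type*} [Field F] [Field K] [Algebra F K] [FiniteDimensional F K]
  [Algebra.IsSeparable F K]

/-- `t ↦ Tr(q ρ t) - ρ Tr(q t)`. -/
noncomputable def Yl (ρ q : K) : K →ₗ[F] K :=
  ((Algebra.trace F K).comp (LinearMap.mulLeft F (q * ρ))).smulRight (1 : K)
    - ((Algebra.trace F K).comp (LinearMap.mulLeft F q)).smulRight ρ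

theorem Yl_apply (ρ q t : K) :
    Yl (F := F) ρ q t = Algebra.trace F K (q * ρ * t) • (1 : K) - Algebra.trace F K (q * t) • ρ := rfl

/-- `t ↦ π(d' t) d - π(d t) d'`. -/
noncomputable def Xl (π : K →ₗ[F] F) (d d' : K) : K →ₗ[F] K :=
  (π.comp (LinearMap.mulLeft F d')).smulRight d - (π.comp (LinearMap.mulLeft F d)).smulRight d'

theorem Xl_apply (π : K →ₗ[F] F) (d d' t : K) :
    Xl π d d' t = π (d' * t) • d - π (d * t) • d' := rfl

theorem trace_mem {Q : (K →ₗ[F] K) → Prop} (h0 : Q 0) (hadd : ∀ X Y, Q X → Q Y → Q (X + Y))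
    (hL : ∀ X a b, Q X → Q ((LinearMap.mulLeft F a).comp (X.comp (LinearMap.mulLeft F b))))
    (h1 : Q LinearMap.id) (hneg : ∀ X, Q X → Q (-X)) (hr : (finrank F K).Prime) {π : K →ₗ[F] F}
    (hπ1 : π 1 = 0) (hπne : π ≠ 0) {d₂ : K} (hd₂ : π d₂ = 0)
    (hd₂' : d₂ ∉ (algebraMap F K).range)
    (hX : ∀ d d', π d = 0 → π d' = 0 → d ≠ 0 → Q (Xl π d d'))
    (hrF : (finrank F K : F) ≠ 0) :
    ∃ κ₀ : K, Algebra.trace F K κ₀ ≠ 0 ∧
      Q (((Algebra.trace F K).comp (LinearMap.mulLeft F κ₀)).smulRight (1 : K)) := by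
  classical
  -- `π = Tr(p₀ ·)`
  have hB := traceForm_nondegenerate F K
  set B := Algebra.traceForm F K with hBdef
  have hBapp : ∀ x y, B x y = Algebra.trace F K (x * y) := fun x y => rfl
  set p₀ := (B.toDual hB).symm π with hp₀def
  have hp₀ : ∀ t, π t = Algebra.trace F K (p₀ * t) := by
    intro t
    have := LinearMap.BilinForm.apply_toDual_symm_apply (B := B) (hB := hB) π t
    rw [← this]
    exact hBapp _ _
  have hp₀0 : p₀ ≠ 0 := by
    intro h
    apply hπne
    ext t
    simp [hp₀, h]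
  -- `Y`
  have hY : ∀ d d' q : K, π d = 0 → π d' = 0 → d ≠ 0 → Q (Yl (d' / d) q) := by
    intro d d' q hd hd' hd0
    have := hL _ d⁻¹ (q / (p₀ * d)) (hX d d' hd hd' hd0)
    convert this using 1
    ext t
    simp only [LinearMap.comp_apply, LinearMap.mulLeft_apply, Xl_apply, Yl_apply]
    rw [hp₀, hp₀]
    have e1 : p₀ * (d' * (q / (p₀ * d) * t)) = q * (d' / d) * t := by field_simp
    have e2 : p₀ * (d * (q / (p₀ * d) * t)) = q * t := by field_simp
    rw [e1, e2]
    simp only [Algebra.smul_def, mul_one]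
    field_simp
  have hYadd : ∀ ρ₁ ρ₂ q : K, Yl (F := F) (ρ₁ + ρ₂) q = Yl ρ₁ q + Yl ρ₂ q := by
    intro ρ₁ ρ₂ q
    ext t
    simp only [LinearMap.add_apply, Yl_apply, mul_add, add_mul, map_add, add_smul, smul_add]
    abel
  have hYsmul : ∀ (s : F) (ρ q : K), Yl (F := F) (s • ρ) q = Yl ρ (s • q) := by
    intro s ρ q
    ext t
    simp only [Yl_apply]
    have e1 : q * s • ρ * t = s • q * ρ * t := by simp only [Algebra.smul_def]; ring
    have e2 : s • q * t = s • (q * t) := by simp only [Algebra.smul_def]; ring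
    rw [e1, e2, map_smul, smul_eq_mul, mul_comm s, mul_smul]
  -- `d₃`
  have hD0 : LinearMap.ker π ≠ ⊥ := by
    intro h
    have : (1 : K) ∈ LinearMap.ker π := hπ1
    rw [h, Submodule.mem_bot] at this
    exact one_ne_zero this
  have hD1 : LinearMap.ker π ≠ ⊤ := by
    intro h
    exact hπne (LinearMap.ker_eq_top.mp h)
  have hd₂0 : d₂ ≠ 0 := by
    rintro rfl
    exact hd₂' ⟨0, by simp⟩
  obtain ⟨d₃, hd₃, hd₃'⟩ : ∃ d₃ ∈ LinearMap.ker π, d₂⁻¹ * d₃ ∉ LinearMap.ker π := by
    by_contra hc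
    push Not at hc
    have := mem_base_of_stable F hr hD0 hD1 hc
    apply hd₂'
    obtain ⟨s, hs⟩ := this
    refine ⟨s⁻¹, ?_⟩
    rw [map_inv₀, hs, inv_inv]
  set x := d₃ / d₂ with hx
  have hπx : π x ≠ 0 := by
    intro h
    apply hd₃'
    rw [LinearMap.mem_ker, ← h, hx, div_eq_mul_inv, mul_comm]
  have hYall : ∀ y q : K, Q (Yl y q) := by
    intro y q
    have hy1 : π (y - (π y / π x) • x) = 0 := by
      simp only [map_sub, map_smul, smul_eq_mul]
      field_simp
      ring
    have hy2 : Q (Yl (y - (π y / π x) • x) q) := by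
      have := hY 1 (y - (π y / π x) • x) q hπ1 hy1 one_ne_zero
      simpa using this
    have hy3 : Q (Yl ((π y / π x) • x) q) := by
      rw [hYsmul]
      exact hY d₂ d₃ _ hd₂ hd₃ hd₂0
    have := hadd _ _ hy2 hy3
    rw [← hYadd] at this
    simpa using this
  -- the sum over a dual basis
  let b := Module.finBasis F K
  let b' := B.dualBasis hB b
  refine ⟨∑ i, b i * b' i, ?_, ?_⟩
  · rw [map_sum]
    have : ∀ i, Algebra.trace F K (b i * b' i) = 1 := by
      intro i
      have h2 := LinearMap.BilinForm.apply_dualBasis_left hB b i i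
      rw [if_pos rfl, hBapp, mul_comm] at h2
      exact h2
    simp only [this, Finset.sum_const, Finset.card_univ, Fintype.card_fin, nsmul_eq_mul, mul_one]
    exact hrF
  · have hsum : Q (∑ i, Yl (b' i) (b i)) :=
      Finset.sum_induction _ Q hadd h0 (fun i _ => hYall _ _)
    have := hadd _ _ hsum h1
    convert this using 1
    ext t
    simp only [LinearMap.smulRight_apply, LinearMap.comp_apply, LinearMap.mulLeft_apply,
      LinearMap.add_apply, LinearMap.sum_apply, Yl_apply, LinearMap.id_apply, Finset.sum_sub_distrib]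
    have e1 : ∑ i, Algebra.trace F K (b i * t) • b' i = t := by
      conv_rhs => rw [← b'.sum_repr t]
      apply Finset.sum_congr rfl
      intro i _
      rw [LinearMap.BilinForm.dualBasis_repr_apply, hBapp, mul_comm]
    rw [e1, Finset.sum_mul, map_sum, Finset.sum_smul]
    abel

end TraceLemma

end Cfsg.Agent.Lib.Classical.Spread
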