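import Mathlib
import Cfsg.Agent.Lib.Classical.Spread.TraceSum

/-!
# Producing a transvection from the normal form: odd prime degree in characteristic two
-/

set_option autoImplicit false

namespace Cfsg.Agent.Lib.Classical.Spread

open Module

variable {F K V : Type*} [Field F] [Field K] [Algebra F K] [AddCommGroup V] [Module F V]
  [Module K V] [IsScalarTower F K V]

/-- `x ↦ X (f x) • w`. -/
def θ (f : V →ₗ[K] K) (w : V) (X : K →ₗ[F] K) : Module.End F V :=
  (X.comp (f.restrictScalars F)).smulRight w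

@[simp] theorem θ_apply (f : V →ₗ[K] K) (w : V) (X : K →ₗ[F] K) (x : V) :
    θ f w X x = X (f x) • w := rfl

section Q
variable {M : Subgroup (Module.End F V)ˣ} {f : V →ₗ[K] K} {w : V}

theorem θ_mul (hw : f w = 0) (X Y : K →ₗ[F] K) : θ f w X * θ f w Y = 0 := by
  ext x
  simp [Module.End.mul_apply, hw]

theorem isQ_add (hw : f w = 0) {X Y : K →ₗ[F] K} (hX : IsIn M (θ f w X)) (hY : IsIn M (θ f w Y)) :
    IsIn M (θ f w (X + Y)) := by
  have := isIn_add hX hY (θ_mul hw X Y) (θ_mul hw Y X)
  convert this using 1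
  ext x
  simp [add_smul]

theorem isQ_neg {X : K →ₗ[F] K} (hX : IsIn M (θ f w X)) : IsIn M (θ f w (-X)) := by
  have := isIn_neg hX
  convert this using 1
  ext x
  simp

theorem isQ_zero : IsIn M (θ f w (0 : K →ₗ[F] K)) := by
  have := isIn_zero M
  convert this using 1
  ext x
  simp

theorem isQ_mulLeft (hG : Good F K M) (hw : f w = 0) (c : K) :
    IsIn M (θ f w (LinearMap.mulLeft F c)) := by
  have := hG.trans (c • f) w (by simp [hw])
  convert this using 1
  ext x
  simp

theorem isQ_scale_left [FiniteDimensional F K] (hG : Good F K M) (hw : f w = 0) {f₁ : V →ₗ[K] K}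
    (h₁ : f₁ w = 1) {a : K} (ha : Algebra.norm F a = 1) {X : K →ₗ[F] K} (hX : IsIn M (θ f w X)) :
    IsIn M (θ f w ((LinearMap.mulLeft F a).comp X)) := by
  have ha0 : a ≠ 0 := by
    rintro rfl
    rw [Algebra.norm_zero] at ha
    exact zero_ne_one ha
  have hmem := hG.scale f₁ w a h₁ ha0 ha
  have hc := isIn_conj hX _ hmem
  convert hc using 1
  ext x
  have h1 : f (((scaleU F f₁ w a h₁ ha0)⁻¹ : (Module.End F V)ˣ).val x) = f x := by
    rw [scaleU_inv_apply]
    simp [hw]
  have h2 : ∀ c : K, (scaleU F f₁ w a h₁ ha0 : Module.End F V) (c • w) = (a * c) • w := by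
    intro c
    rw [scaleU_apply]
    simp only [map_smul, h₁, smul_eq_mul, mul_one]
    rw [smul_smul, ← add_smul]
    congr 1
    ring
  simp only [θ_apply, Module.End.mul_apply, LinearMap.comp_apply, LinearMap.mulLeft_apply, h1, h2]

theorem isQ_scale_right [FiniteDimensional F K] (hG : Good F K M) (hw : f w = 0) {v : V}
    (hv : f v = 1) {b : K} (hb : Algebra.norm F b = 1) {X : K →ₗ[F] K} (hX : IsIn M (θ f w X)) :
    IsIn M (θ f w (X.comp (LinearMap.mulLeft F b))) := by
  have hb0 : b ≠ 0 := by
    rintro rfl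
    rw [Algebra.norm_zero] at hb
    exact zero_ne_one hb
  have hbi : b⁻¹ ≠ 0 := inv_ne_zero hb0
  have hnorm : Algebra.norm F b⁻¹ = 1 := by
    have := map_mul (Algebra.norm F) b b⁻¹
    rw [mul_inv_cancel₀ hb0, map_one, hb, one_mul] at this
    exact this.symm
  have hmem := hG.scale f v b⁻¹ hv hbi hnorm
  have hc := isIn_conj hX _ hmem
  convert hc using 1
  ext x
  have h1 : f (((scaleU F f v b⁻¹ hv hbi)⁻¹ : (Module.End F V)ˣ).val x) = b * f x := by
    rw [scaleU_inv_apply]
    simp only [map_add, map_smul, hv, smul_eq_mul, mul_one, inv_inv]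
    ring
  have h2 : ∀ c : K, (scaleU F f v b⁻¹ hv hbi : Module.End F V) (c • w) = c • w := by
    intro c
    rw [scaleU_apply]
    simp [hw]
  simp only [θ_apply, Module.End.mul_apply, LinearMap.comp_apply, LinearMap.mulLeft_apply, h1, h2]

/-- The bimodule closure. -/
theorem isQ_bimod [Finite F] [Finite K] [FiniteDimensional F K] (hr : 2 ≤ finrank F K)
    (hG : Good F K M) (hw : f w = 0) {f₁ : V →ₗ[K] K} (h₁ : f₁ w = 1) {v : V} (hv : f v = 1)
    {X : K →ₗ[F] K} (hX : IsIn M (θ f w X)) (a b : K) :
    IsIn M (θ f w ((LinearMap.mulLeft F a).comp (X.comp (LinearMap.mulLeft F b)))) := by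
  have hb : b ∈ AddSubgroup.closure {a : K | Algebra.norm F a = 1} := by
    rw [closure_norm_one F hr]; trivial
  have ha : a ∈ AddSubgroup.closure {a : K | Algebra.norm F a = 1} := by
    rw [closure_norm_one F hr]; trivial
  have hright : IsIn M (θ f w (X.comp (LinearMap.mulLeft F b))) := by
    induction hb using AddSubgroup.closure_induction with
    | mem y hy => exact isQ_scale_right hG hw hv hy hX
    | zero =>
      convert isQ_zero (F := F) (M := M) (f := f) (w := w)
      ext t
      simp
    | add c d _ _ hc hd =>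
      have := isQ_add hw hc hd
      convert this using 2
      ext t
      simp [add_mul]
    | neg c _ hc =>
      have := isQ_neg hc
      convert this using 2
      ext t
      simp
  induction ha using AddSubgroup.closure_induction with
  | mem y hy => exact isQ_scale_left hG hw h₁ hy hright
  | zero =>
    convert isQ_zero (F := F) (M := M) (f := f) (w := w)
    ext t
    simp
  | add c d _ _ hc hd =>
    have := isQ_add hw hc hd
    convert this using 2
    ext t
    simp [add_mul]
  | neg c _ hc =>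
    have := isQ_neg hc
    convert this using 2
    ext t
    simp

end Q

namespace NF

variable {M : Subgroup (Module.End F V)ˣ} (N : NF F K V M)

include N in
/-- **Odd prime degree.** -/
theorem hasTv_of_odd [Finite F] [Finite K] [FiniteDimensional F K] [Algebra.IsSeparable F K]
    (hG : Good F K M) (hr : (finrank F K).Prime) (hr3 : 3 ≤ finrank F K)
    (hrF : (finrank F K : F) ≠ 0) : HasTv M := by
  by_contra hno
  obtain ⟨f, hf1, hf2⟩ := N.exists_f
  obtain ⟨f₁, hf₁1, hf₁2⟩ := N.exists_f₁
  have hπne : N.π ≠ 0 := by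
    intro h
    have := N.π_u
    rw [h] at this
    simp at this
  -- an element of `D` outside `F`
  obtain ⟨d₂, hd₂, hd₂'⟩ : ∃ d₂, N.π d₂ = 0 ∧ d₂ ∉ (algebraMap F K).range := by
    by_contra hc
    push Not at hc
    have hle : LinearMap.ker N.π ≤ Submodule.span F {(1 : K)} := by
      intro x hx
      obtain ⟨s, hs⟩ := hc x hx
      exact Submodule.mem_span_singleton.mpr ⟨s, by rw [← hs, Algebra.algebraMap_eq_smul_one]⟩
    have h1 := Submodule.finrank_mono hle
    have h2 : finrank F ↥(Submodule.span F {(1 : K)}) = 1 := finrank_span_singleton one_ne_zero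
    have h3 := LinearMap.finrank_range_add_finrank_ker N.π
    have h4 : finrank F ↥(LinearMap.range N.π) ≤ 1 := by
      have := Submodule.finrank_le (LinearMap.range N.π)
      simpa using this
    omega
  have hπ1 : N.π 1 = 0 := (N.π_ker 1).mpr N.one_mem
  have hw : f N.v₁ = 0 := hf1
  have hX : ∀ d d', N.π d = 0 → N.π d' = 0 → d ≠ 0 → IsIn M (θ f N.v₁ (Xl N.π d d')) := by
    intro d d' hd hd' hd0
    have hdD : d ∈ N.D := (N.π_ker d).mp hd
    have hd'D : d' ∈ N.D := (N.π_ker d').mp hd'
    obtain ⟨c, hc⟩ := N.exists_param ((N.D_mem d).mp hdD)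
    have hcomm := N.comm_D hG hf1 hf2 c d d' hc hd'D
    convert hcomm using 1
    ext x
    rw [N.comm_D_apply hf1 c d d' hc x, ← N.agree hG hno hf1 hf2 hc hdD hd0 x]
    simp only [θ_apply, Xl_apply, sub_smul, smul_assoc]
    congr 1
    rw [mul_smul, algebraMap_smul, smul_comm]
  obtain ⟨κ₀, hκ₀, hQ⟩ := trace_mem (F := F) (K := K) (Q := fun X => IsIn M (θ f N.v₁ X))
    isQ_zero (fun X Y hX hY => isQ_add hw hX hY)
    (fun X a b hX => isQ_bimod hr.two_le hG hw hf₁1 hf2 hX a b)
    (by
      have := isQ_mulLeft hG hw (1 : K)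
      convert this using 2
      ext t
      simp)
    (fun X hX => isQ_neg hX) hr hπ1 hπne hd₂ hd₂' hX hrF
  apply hno
  refine ⟨lf ((Algebra.trace F K).comp (LinearMap.mulLeft F κ₀)) f, N.v₁, ?_, N.v₁_ne, ?_⟩
  · intro h
    have := LinearMap.congr_fun h N.v₂
    simp [hf2, hκ₀] at this
  · convert hQ using 1
    ext x
    simp [smul_assoc]

end NF

end Cfsg.Agent.Lib.Classical.Spread
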