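import Mathlib
import Cfsg.Agent.Lib.Classical.Spread.Odd

/-!
# Producing a transvection from the normal form: degree two in characteristic two
-/

set_option autoImplicit false

namespace Cfsg.Agent.Lib.Classical.Spread

open Module

variable {F K V : Type*} [Field F] [Field K] [Algebra F K] [AddCommGroup V] [Module F V]
  [Module K V] [IsScalarTower F K V]

section NT
variable {M : Subgroup (Module.End F V)ˣ} {f : V →ₗ[K] K} {w : V}

/-- For degree two, a root-type element with no transvection in sight is `K`-linear. -/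
theorem mulLeft_of_no_tv [FiniteDimensional F K] (hG : Good F K M) (hno : ¬ HasTv M)
    (hr2 : finrank F K = 2) (hw : f w = 0) (hf : f ≠ 0) (hw0 : w ≠ 0) {X : K →ₗ[F] K}
    (hX : IsIn M (θ f w X)) : X = LinearMap.mulLeft F (X 1) := by
  by_contra hne
  set X' : K →ₗ[F] K := X + -(LinearMap.mulLeft F (X 1)) with hX'
  have hX'in : IsIn M (θ f w X') := isQ_add hw hX (isQ_neg (isQ_mulLeft hG hw _))
  have hX'1 : X' 1 = 0 := by simp [hX']
  obtain ⟨u₀, hu₀⟩ : ∃ t, X' t ≠ 0 := by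
    by_contra h
    push Not at h
    apply hne
    ext t
    have := h t
    simp only [hX', LinearMap.add_apply, LinearMap.neg_apply, add_neg_eq_zero] at this
    exact this
  have hspan : ∀ t ∈ Submodule.span F {(1 : K)}, X' t = 0 := by
    intro t ht
    obtain ⟨s, rfl⟩ := Submodule.mem_span_singleton.mp ht
    rw [map_smul, hX'1, smul_zero]
  have hu₀' : u₀ ∉ Submodule.span F {(1 : K)} := fun h => hu₀ (hspan _ h)
  obtain ⟨π', hπ', hπ'u⟩ := exists_func _ hu₀' (1 : F)
  have hker : LinearMap.ker π' ≤ Submodule.span F {(1 : K)} := by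
    have h1 := LinearMap.finrank_range_add_finrank_ker π'
    have h2 : finrank F ↥(LinearMap.range π') = 1 := by
      have : LinearMap.range π' = ⊤ := by
        rw [LinearMap.range_eq_top]
        intro s
        exact ⟨s • u₀, by simp [hπ'u]⟩
      rw [this, finrank_top, finrank_self]
    have h3 : finrank F ↥(Submodule.span F {(1 : K)}) = 1 := finrank_span_singleton one_ne_zero
    have hle : Submodule.span F {(1 : K)} ≤ LinearMap.ker π' := fun x hx => hπ' x hx
    exact (Submodule.eq_of_le_of_finrank_le hle (by omega)).symm.le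
  have hval : ∀ t, X' t = π' t • X' u₀ := by
    intro t
    have h1 : t - π' t • u₀ ∈ LinearMap.ker π' := by simp [hπ'u]
    have h2 := hspan _ (hker h1)
    rw [map_sub, map_smul, sub_eq_zero] at h2
    exact h2
  apply hno
  obtain ⟨x₀, hx₀⟩ : ∃ x, f x = u₀ := by
    obtain ⟨x, hx⟩ : ∃ x, f x ≠ 0 := by
      by_contra h
      push Not at h
      exact hf (LinearMap.ext h)
    exact ⟨(u₀ / f x) • x, by simp [hx]⟩
  refine ⟨lf π' f, X' u₀ • w, ?_, smul_ne_zero hu₀ hw0, ?_⟩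
  · intro h
    have := LinearMap.congr_fun h x₀
    simp [hx₀, hπ'u] at this
  · convert hX'in using 1
    ext x
    simp only [fl_apply, lf_apply, θ_apply]
    rw [hval (f x), smul_assoc]

end NT

namespace NF

variable {M : Subgroup (Module.End F V)ˣ} (N : NF F K V M)

section Two
variable (hG : Good F K M) (hno : ¬ HasTv M)

theorem π_alg_zero (s : F) : N.π (algebraMap F K s) = 0 := by
  have h1 : N.π 1 = 0 := (N.π_ker 1).mpr N.one_mem
  rw [Algebra.algebraMap_eq_smul_one, map_smul, h1, smul_zero]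

theorem u_not : N.u ∉ (algebraMap F K).range := by
  rintro ⟨s, hs⟩
  have := N.π_alg_zero s
  rw [hs, N.π_u] at this
  exact one_ne_zero this

theorem v₁_mem : N.v₁ ∈ N.W := by simpa using (N.D_mem 1).mp N.one_mem

include hG hno in
/-- All vectors are `K`-combinations of `v₁`, `v₂`. -/
theorem exists_coord_K (x : V) : ∃ a b : K, x = a • N.v₁ + b • N.v₂ := by
  by_contra hc
  push Not at hc
  have hx : x ∉ Submodule.span K {N.v₁, N.v₂} := by
    intro h
    obtain ⟨a, b, hab⟩ := Submodule.mem_span_pair.mp h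
    exact hc a b hab.symm
  obtain ⟨g, hg, hgx⟩ := exists_func _ hx (1 : K)
  have hg0 := N.m2 hG hno g (hg _ (Submodule.subset_span (by simp)))
    (hg _ (Submodule.subset_span (by simp)))
  rw [hg0] at hgx
  simp at hgx

include N hG hno in
theorem finrank_le_two [FiniteDimensional K V] : finrank K V ≤ 2 := by
  classical
  have htop : Submodule.span K ({N.v₁, N.v₂} : Set V) = ⊤ := by
    rw [eq_top_iff]
    intro x _
    obtain ⟨a, b, rfl⟩ := N.exists_coord_K hG hno x
    exact Submodule.mem_span_pair.mpr ⟨a, b, rfl⟩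
  have h : finrank K ↥(Submodule.span K ((({N.v₁, N.v₂} : Finset V)) : Set V))
      ≤ ({N.v₁, N.v₂} : Finset V).card := finrank_span_finset_le_card _
  rw [Finset.coe_insert, Finset.coe_singleton, htop, finrank_top] at h
  exact h.trans (Finset.card_le_two)

include hG hno in
/-- The kernel of `f'` is `K z`. -/
theorem ker_f' [FiniteDimensional K V] {y : V} (hy : N.f' y = 0) : y ∈ Submodule.span K {N.z} := by
  by_contra hc
  have h1 := LinearMap.finrank_range_add_finrank_ker N.f'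
  have h2 : finrank K ↥(LinearMap.range N.f') = 1 := by
    have : LinearMap.range N.f' = ⊤ := by
      rw [LinearMap.range_eq_top]
      intro s
      exact ⟨s • (N.h⁻¹ : (Module.End F V)ˣ).val (N.u • N.v₁), by simp [N.f'_u]⟩
    rw [this, finrank_top, finrank_self]
  have h3 := Submodule.finrank_sup_span_singleton hc
  have h4 : finrank K ↥(Submodule.span K {N.z}) = 1 := finrank_span_singleton N.z_ne
  have hle : Submodule.span K {N.z} ⊔ Submodule.span K {y} ≤ LinearMap.ker N.f' := by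
    apply sup_le
    · rw [Submodule.span_singleton_le_iff_mem]
      exact N.f'_z
    · rw [Submodule.span_singleton_le_iff_mem]
      exact hy
  have h5 := Submodule.finrank_mono hle
  have h6 := N.finrank_le_two hG hno
  omega

include hG hno in
theorem β_eq_zero [FiniteDimensional K V] {c : K} (hc : c ≠ 0) {x : V} (hx : N.β c x = 0) :
    x ∈ N.W := by
  rw [β_apply] at hx
  have h1 : (c * N.f' ((N.h⁻¹ : (Module.End F V)ˣ).val x)) • N.z = 0 :=
    umap_inj N.h (by rw [hx, map_zero])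
  have h2 : N.f' ((N.h⁻¹ : (Module.End F V)ˣ).val x) = 0 := by
    rcases smul_eq_zero.mp h1 with h | h
    · exact (mul_eq_zero.mp h).resolve_left hc
    · exact absurd h N.z_ne
  obtain ⟨t, ht⟩ := Submodule.mem_span_singleton.mp (N.ker_f' hG hno h2)
  exact N.mem_W_iff.mpr ⟨t, by rw [ht, apply_inv_apply]⟩

include hG hno in
/-- An element of `M` killing `W` with range in `W` belongs to the root family. -/
theorem root_of [FiniteDimensional F K] [FiniteDimensional K V] (hr2 : finrank F K = 2)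
    {B : Module.End F V} (hB : IsIn M B) (hkill : ∀ x ∈ N.W, B x = 0) (hmem : ∀ x, B x ∈ N.W) :
    ∃ c, B = N.β c := by
  classical
  set h := N.h with hh
  set hi := (N.h⁻¹ : (Module.End F V)ˣ) with hhi
  have hin : IsIn M (hi.val * B * (hi⁻¹ : (Module.End F V)ˣ).val) :=
    isIn_conj hB hi (M.inv_mem N.h_mem)
  rw [hhi, inv_inv] at hin
  set B' : Module.End F V := (h⁻¹ : (Module.End F V)ˣ).val * B * h.val with hB'
  set a₀ := (h⁻¹ : (Module.End F V)ˣ).val (N.u • N.v₁) with ha₀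
  have hfa₀ : N.f' a₀ = 1 := N.f'_u
  have hzl : N.z ∉ (⊥ : Submodule K V) := by simpa using N.z_ne
  obtain ⟨ξ, -, hξ⟩ := exists_func (⊥ : Submodule K V) hzl (1 : K)
  set X : K →ₗ[F] K := (ξ.restrictScalars F).comp
    (B'.comp ((LinearMap.toSpanSingleton K V a₀).restrictScalars F)) with hX
  have hB'val : ∀ t : K, B' (t • a₀) = X t • N.z := by
    intro t
    have h1 : B (h.val (t • a₀)) ∈ N.W := hmem _
    obtain ⟨c, hc⟩ := N.mem_W_iff.mp h1
    have h2 : B' (t • a₀) = c • N.z := by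
      change (h⁻¹ : (Module.End F V)ˣ).val (B (h.val (t • a₀))) = _
      rw [← hc, inv_apply_apply]
    have h3 : X t = c := by
      change ξ (B' (t • a₀)) = c
      rw [h2, map_smul, hξ, smul_eq_mul, mul_one]
    rw [h3, h2]
  have hB'θ : B' = θ N.f' N.z X := by
    ext x
    rw [θ_apply, ← hB'val]
    have h1 : N.f' (x - N.f' x • a₀) = 0 := by simp [hfa₀]
    obtain ⟨t, ht⟩ := Submodule.mem_span_singleton.mp (N.ker_f' hG hno h1)
    have h2 : B' (x - N.f' x • a₀) = 0 := by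
      rw [← ht]
      change (h⁻¹ : (Module.End F V)ˣ).val (B (h.val (t • N.z))) = 0
      rw [hkill _ (N.mem_W_iff.mpr ⟨t, rfl⟩), map_zero]
    rw [map_sub, sub_eq_zero] at h2
    exact h2
  have hf'0 : N.f' ≠ 0 := by
    intro h0
    rw [h0] at hfa₀
    simp at hfa₀
  rw [hB'θ] at hin
  have hXeq := mulLeft_of_no_tv hG hno hr2 N.f'_z hf'0 N.z_ne hin
  refine ⟨X 1, ?_⟩
  ext x
  rw [β_apply]
  have h1 : B' ((h⁻¹ : (Module.End F V)ˣ).val x) = (X 1 * N.f' ((h⁻¹ : (Module.End F V)ˣ).val x)) • N.z := by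
    rw [hB'θ, θ_apply]
    conv_lhs => rw [hXeq]
    rfl
  rw [← h1]
  change _ = h.val ((h⁻¹ : (Module.End F V)ˣ).val (B (h.val ((h⁻¹ : (Module.End F V)ˣ).val x))))
  rw [apply_inv_apply, apply_inv_apply]

/-- For degree two, `D = F`. -/
theorem mem_D_iff [FiniteDimensional F K] (hr2 : finrank F K = 2) {t : K} (ht : t ∈ N.D) :
    t ∈ (algebraMap F K).range := by
  have h1 := LinearMap.finrank_range_add_finrank_ker N.π
  have h2 : finrank F ↥(LinearMap.range N.π) = 1 := by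
    have : LinearMap.range N.π = ⊤ := by
      rw [LinearMap.range_eq_top]
      intro s
      exact ⟨s • N.u, by simp [N.π_u]⟩
    rw [this, finrank_top, finrank_self]
  have h3 : finrank F ↥(Submodule.span F {(1 : K)}) = 1 := finrank_span_singleton one_ne_zero
  have hle : Submodule.span F {(1 : K)} ≤ LinearMap.ker N.π := by
    rw [Submodule.span_singleton_le_iff_mem]
    exact (N.π_ker 1).mpr N.one_mem
  have heq := Submodule.eq_of_le_of_finrank_le hle (by omega)
  have htk : t ∈ LinearMap.ker N.π := (N.π_ker t).mpr ht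
  rw [← heq] at htk
  obtain ⟨s, hs⟩ := Submodule.mem_span_singleton.mp htk
  exact ⟨s, by rw [← hs, Algebra.algebraMap_eq_smul_one]⟩

/-- Coordinates in `W` for degree two. -/
theorem coord2 [FiniteDimensional F K] (hr2 : finrank F K = 2) {y : V} (hy : y ∈ N.W) :
    ∃ α γ : F, y = α • N.v₁ + γ • N.v₂ := by
  obtain ⟨t, ht, s, rfl⟩ := N.coord y hy
  obtain ⟨α, rfl⟩ := N.mem_D_iff hr2 ht
  exact ⟨α, s, by rw [algebraMap_smul]⟩

theorem W_mk (α γ : F) : α • N.v₁ + γ • N.v₂ ∈ N.W :=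
  N.W.add_mem (N.W.smul_mem α N.v₁_mem) (N.W.smul_mem γ N.v₂_mem)

theorem β_smul (s : F) (c : K) : N.β (s • c) = s • N.β c := by
  ext x
  simp only [β_apply, LinearMap.smul_apply, smul_mul_assoc, smul_assoc, map_smul]

/-- The action of a `K`-diagonal element. -/
theorem scale2 {f f₁ : V →ₗ[K] K} (hf1 : f N.v₁ = 0) (hf2 : f N.v₂ = 1) (hf₁1 : f₁ N.v₁ = 1)
    (hf₁2 : f₁ N.v₂ = 0) {a a' : K} (ha : a ≠ 0) (ha' : a' ≠ 0) (b₁ b₂ : K) :
    (scaleU F f₁ N.v₁ a hf₁1 ha * scaleU F f N.v₂ a' hf2 ha').val (b₁ • N.v₁ + b₂ • N.v₂)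
      = (a * b₁) • N.v₁ + (a' * b₂) • N.v₂ := by
  simp only [Units.val_mul, Module.End.mul_apply, scaleU_apply, map_add, map_smul, smul_eq_mul,
    hf1, hf2, hf₁1, hf₁2, mul_zero, mul_one, add_zero, zero_add, zero_smul]
  module

theorem scale2_inv {f f₁ : V →ₗ[K] K} (hf1 : f N.v₁ = 0) (hf2 : f N.v₂ = 1) (hf₁1 : f₁ N.v₁ = 1)
    (hf₁2 : f₁ N.v₂ = 0) {a a' : K} (ha : a ≠ 0) (ha' : a' ≠ 0) (b₁ b₂ : K) :
    ((scaleU F f₁ N.v₁ a hf₁1 ha * scaleU F f N.v₂ a' hf2 ha')⁻¹ : (Module.End F V)ˣ).val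
        (b₁ • N.v₁ + b₂ • N.v₂)
      = (a⁻¹ * b₁) • N.v₁ + (a'⁻¹ * b₂) • N.v₂ := by
  rw [mul_inv_rev]
  simp only [Units.val_mul, Module.End.mul_apply, scaleU_inv_apply, map_add, map_smul, smul_eq_mul,
    hf1, hf2, hf₁1, hf₁2, mul_zero, mul_one, add_zero, zero_add, zero_smul]
  module

include N hG hno in
/-- **Degree two, `q ≥ 4`**: a contradiction. -/
theorem false_of_large [FiniteDimensional F K] [FiniteDimensional K V] (hr2 : finrank F K = 2)
    (h2 : (2 : F) = 0) {s : F} (hs0 : s ≠ 0) (hs1 : s ≠ 1) : False := by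
  obtain ⟨f, hf1, hf2⟩ := N.exists_f
  obtain ⟨f₁, hf₁1, hf₁2⟩ := N.exists_f₁
  obtain ⟨c₂, hc₂⟩ := N.exists_param N.v₂_mem
  have hc₂0 : c₂ ≠ 0 := N.param_ne hc₂ N.v₂_ne
  set a := algebraMap F K s with ha
  set a' := algebraMap F K s⁻¹ with ha'
  have ha0 : a ≠ 0 := by simpa [ha] using hs0
  have ha'0 : a' ≠ 0 := by simpa [ha'] using hs0
  set S := scaleU F f₁ N.v₁ a hf₁1 ha0 * scaleU F f N.v₂ a' hf2 ha'0 with hS
  have hSM : S ∈ M := hG.diag f₁ f N.v₁ N.v₂ s hf₁1 hf2 hf₁2 hf1 ha0 ha'0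
  have hSmk : ∀ b₁ b₂ : K, S.val (b₁ • N.v₁ + b₂ • N.v₂) = (a * b₁) • N.v₁ + (a' * b₂) • N.v₂ :=
    N.scale2 hf1 hf2 hf₁1 hf₁2 ha0 ha'0
  have hSimk : ∀ b₁ b₂ : K, (S⁻¹ : (Module.End F V)ˣ).val (b₁ • N.v₁ + b₂ • N.v₂)
      = (a⁻¹ * b₁) • N.v₁ + (a'⁻¹ * b₂) • N.v₂ :=
    N.scale2_inv hf1 hf2 hf₁1 hf₁2 ha0 ha'0
  have hai : a⁻¹ = a' := by simp [ha, ha']
  have hai' : a'⁻¹ = a := by simp [ha, ha']
  have hconv : ∀ (α γ : F), α • N.v₁ + γ • N.v₂
      = (algebraMap F K α) • N.v₁ + (algebraMap F K γ) • N.v₂ := by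
    intro α γ
    rw [algebraMap_smul, algebraMap_smul]
  have hSF : ∀ α γ : F, S.val (α • N.v₁ + γ • N.v₂) = (s * α) • N.v₁ + (s⁻¹ * γ) • N.v₂ := by
    intro α γ
    rw [hconv, hSmk, hconv (s * α), ha, ha', map_mul, map_mul]
  have hSiF : ∀ α γ : F, (S⁻¹ : (Module.End F V)ˣ).val (α • N.v₁ + γ • N.v₂)
      = (s⁻¹ * α) • N.v₁ + (s * γ) • N.v₂ := by
    intro α γ
    rw [hconv, hSimk, hai, hai', hconv (s⁻¹ * α), ha, ha', map_mul, map_mul]
  set β' := N.β c₂ with hβ'
  set B : Module.End F V := S.val * β' * (S⁻¹ : (Module.End F V)ˣ).val with hB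
  have hBin : IsIn M B := isIn_conj (N.β_isIn hG c₂) S hSM
  have hBkill : ∀ x ∈ N.W, B x = 0 := by
    intro x hx
    obtain ⟨α, γ, rfl⟩ := N.coord2 hr2 hx
    change S.val (β' ((S⁻¹ : (Module.End F V)ˣ).val _)) = 0
    rw [hSiF, N.β_kill c₂ (N.W_mk _ _), map_zero]
  have hBmem : ∀ x, B x ∈ N.W := by
    intro x
    change S.val (β' ((S⁻¹ : (Module.End F V)ˣ).val _)) ∈ N.W
    obtain ⟨α, γ, hy⟩ := N.coord2 hr2 (N.β_mem c₂ ((S⁻¹ : (Module.End F V)ˣ).val x))
    rw [hy, hSF]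
    exact N.W_mk _ _
  obtain ⟨c, hc⟩ := N.root_of hG hno hr2 hBin hBkill hBmem
  -- the value at `u v₁`
  have e1 : (S⁻¹ : (Module.End F V)ˣ).val (N.u • N.v₁) = s⁻¹ • (N.u • N.v₁) := by
    have := hSimk N.u 0
    rw [zero_smul, add_zero, mul_zero, zero_smul, add_zero, hai, ha', mul_smul, algebraMap_smul]
      at this
    exact this
  have e3 : S.val N.v₂ = s⁻¹ • N.v₂ := by
    have := hSmk 0 1
    rw [zero_smul, zero_add, one_smul, mul_zero, zero_smul, zero_add, mul_one, ha', algebraMap_smul]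
      at this
    exact this
  have e4 : β' (N.u • N.v₁) = N.v₂ := by rw [hβ', N.β_u, hc₂]
  have e5 : N.h.val (c • N.z) = (s⁻¹ * s⁻¹) • N.v₂ := by
    rw [← N.β_u c, ← hc]
    change S.val (β' ((S⁻¹ : (Module.End F V)ˣ).val _)) = _
    rw [e1, map_smul, e4, map_smul, e3, smul_smul]
  have e6 : c = (s⁻¹ * s⁻¹) • c₂ := by
    have h1 : N.h.val (c • N.z) = N.h.val (((s⁻¹ * s⁻¹) • c₂) • N.z) := by
      rw [e5, ← hc₂, smul_assoc]
      exact (map_smul N.h.val (s⁻¹ * s⁻¹) (c₂ • N.z)).symm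
    exact smul_left_injective K N.z_ne (umap_inj N.h h1)
  have e7 : B = (s⁻¹ * s⁻¹) • β' := by rw [hc, e6, N.β_smul]
  -- the value at `u v₂`
  obtain ⟨α, γ, hαγ⟩ := N.coord2 hr2 (N.β_mem c₂ (N.u • N.v₂))
  have e8 : (S⁻¹ : (Module.End F V)ˣ).val (N.u • N.v₂) = s • (N.u • N.v₂) := by
    have := hSimk 0 N.u
    rw [zero_smul, zero_add, mul_zero, zero_smul, zero_add, hai', ha, mul_smul, algebraMap_smul]
      at this
    exact this
  have e9 : B (N.u • N.v₂) = (s * (s * α)) • N.v₁ + (s * (s⁻¹ * γ)) • N.v₂ := by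
    change S.val (β' ((S⁻¹ : (Module.End F V)ˣ).val _)) = _
    rw [e8, map_smul, hβ', hαγ, map_smul, hSF, smul_add, smul_smul, smul_smul]
  have e10 : B (N.u • N.v₂) = (s⁻¹ * s⁻¹ * α) • N.v₁ + (s⁻¹ * s⁻¹ * γ) • N.v₂ := by
    rw [e7, LinearMap.smul_apply, hβ', hαγ, smul_add, smul_smul, smul_smul]
  have huniq : ∀ {α₁ γ₁ α₂ γ₂ : F}, α₁ • N.v₁ + γ₁ • N.v₂ = α₂ • N.v₁ + γ₂ • N.v₂ →
      α₁ = α₂ ∧ γ₁ = γ₂ := by
    intro α₁ γ₁ α₂ γ₂ h
    constructor
    · have := congrArg f₁ h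
      simp only [map_add, LinearMap.map_smul_of_tower, hf₁1, hf₁2, smul_zero, add_zero] at this
      apply (algebraMap F K).injective
      simpa [Algebra.smul_def] using this
    · have := congrArg f h
      simp only [map_add, LinearMap.map_smul_of_tower, hf1, hf2, smul_zero, zero_add] at this
      apply (algebraMap F K).injective
      simpa [Algebra.smul_def] using this
  obtain ⟨h1, h3⟩ := huniq (e9.symm.trans e10)
  -- char 2
  have hsq : ∀ x : F, x * x = 1 → x = 1 := by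
    intro x hx
    have : (x - 1) * (x - 1) = 0 := by
      have h4 : (x - 1) * (x - 1) = x * x - 2 * x + 1 := by ring
      rw [h4, hx, h2]
      have h5 : (1 : F) + 1 = 0 := by rw [one_add_one_eq_two]; exact h2
      simpa using h5
    have := mul_self_eq_zero.mp this
    exact sub_eq_zero.mp this
  have hss : s * s ≠ 1 := fun h => hs1 (hsq s h)
  have hγ : γ = 0 := by
    by_contra hγ0
    have h4 : s * (s⁻¹ * γ) = γ := by field_simp
    rw [h4] at h3
    have h5 : s⁻¹ * s⁻¹ = 1 := by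
      have : (s⁻¹ * s⁻¹ - 1) * γ = 0 := by linear_combination -h3
      rcases mul_eq_zero.mp this with h | h
      · exact sub_eq_zero.mp h
      · exact absurd h hγ0
    apply hss
    field_simp at h5
    linear_combination -h5
  have hα : α = 0 := by
    by_contra hα0
    have h5 : s * s = s⁻¹ * s⁻¹ := by
      have : (s * s - s⁻¹ * s⁻¹) * α = 0 := by linear_combination h1
      rcases mul_eq_zero.mp this with h | h
      · exact sub_eq_zero.mp h
      · exact absurd h hα0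
    apply hss
    apply hsq
    field_simp at h5
    linear_combination h5
  have hzero : β' (N.u • N.v₂) = 0 := by
    rw [hβ', hαγ, hα, hγ]
    simp
  have hW := N.β_eq_zero hG hno hc₂0 hzero
  obtain ⟨α', γ', hy⟩ := N.coord2 hr2 hW
  have := congrArg f hy
  simp only [map_add, map_smul, LinearMap.map_smul_of_tower, hf1, hf2, smul_zero, zero_add,
    smul_eq_mul, mul_one] at this
  apply N.u_not
  refine ⟨γ', ?_⟩
  rw [this, Algebra.smul_def, mul_one]

end Two

end NF

end Cfsg.Agent.Lib.Classical.Spread
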