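import Mathlib
import Cfsg.Agent.Lib.Classical.Spread.Quad

/-!
# Producing a transvection from the normal form: `K = F₄`, `F = F₂`, `V = K²`
-/

set_option autoImplicit false

namespace Cfsg.Agent.Lib.Classical.Spread

open Module

section Words
variable {F V : Type*} [Field F] [AddCommGroup V] [Module F V]

theorem word_A2 (hV2 : ∀ x : V, x + x = 0) {e₀ e₁ e₂ e₃ : V} {y n : Module.End F V}
    (hy0 : y e₀ = e₀) (hy1 : y e₁ = e₁ + e₀) (hy2 : y e₂ = e₂) (hy3 : y e₃ = e₃ + (e₀ + e₂))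
    (hn0 : n e₀ = e₀) (hn1 : n e₁ = e₁) (hn2 : n e₂ = e₃) (hn3 : n e₃ = e₂ + e₃) :
    y (n (y (n e₀))) = e₀ ∧ y (n (y (n e₁))) = e₁ ∧ y (n (y (n e₂))) = e₂ + e₀ ∧
      y (n (y (n e₃))) = e₃ := by
  have h2 : ∀ x : V, (2 : ℤ) • x = 0 := fun x => by rw [two_zsmul, hV2]
  have h3 : ∀ x : V, (3 : ℤ) • x = x := fun x => by
    have : (3 : ℤ) • x = x + (x + x) := by abel
    rw [this, hV2, add_zero]
  have h4 : ∀ x : V, (4 : ℤ) • x = 0 := fun x => by
    have : (4 : ℤ) • x = (x + x) + (x + x) := by abel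
    rw [this, hV2]
  refine ⟨?_, ?_, ?_, ?_⟩ <;>
    simp only [hy0, hy1, hy2, hy3, hn0, hn1, hn2, hn3, map_add] <;>
    abel_nf <;>
    simp only [h2, h3, h4, zero_add, add_zero]

theorem word_A1 (hV2 : ∀ x : V, x + x = 0) {e₀ e₁ e₂ e₃ : V} {y n n₂ : Module.End F V}
    (hy0 : y e₀ = e₀) (hy1 : y e₁ = e₁ + e₂) (hy2 : y e₂ = e₂) (hy3 : y e₃ = e₃ + (e₀ + e₂))
    (hn0 : n e₀ = e₃) (hn1 : n e₁ = e₂ + e₃) (hn2 : n e₂ = e₁) (hn3 : n e₃ = e₀ + e₁)
    (hm0 : n₂ e₀ = e₁) (hm1 : n₂ e₁ = e₀ + e₁) (hm2 : n₂ e₂ = e₂ + e₃) (hm3 : n₂ e₃ = e₂) :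
    y (n (y (n₂ e₀))) = e₀ + (e₁ + e₂ + e₃) ∧ y (n (y (n₂ e₁))) = e₁ ∧
      y (n (y (n₂ e₂))) = e₂ + (e₁ + e₂ + e₃) ∧ y (n (y (n₂ e₃))) = e₃ + (e₁ + e₂ + e₃) := by
  have h2 : ∀ x : V, (2 : ℤ) • x = 0 := fun x => by rw [two_zsmul, hV2]
  have h3 : ∀ x : V, (3 : ℤ) • x = x := fun x => by
    have : (3 : ℤ) • x = x + (x + x) := by abel
    rw [this, hV2, add_zero]
  have h4 : ∀ x : V, (4 : ℤ) • x = 0 := fun x => by
    have : (4 : ℤ) • x = (x + x) + (x + x) := by abel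
    rw [this, hV2]
  refine ⟨?_, ?_, ?_, ?_⟩ <;>
    simp only [hy0, hy1, hy2, hy3, hn0, hn1, hn2, hn3, hm0, hm1, hm2, hm3, map_add] <;>
    abel_nf <;>
    simp only [h2, h3, h4, zero_add, add_zero]

/-- A unit of `M` acting on a spanning set as a transvection. -/
theorem hasTv_of_word {M : Subgroup (Module.End F V)ˣ} {e₀ e₁ e₂ e₃ : V}
    (hcoord : ∀ x : V, ∃ a₀ a₁ a₂ a₃ : F, x = a₀ • e₀ + a₁ • e₁ + a₂ • e₂ + a₃ • e₃)
    {c : (Module.End F V)ˣ} (hc : c ∈ M) {x₀ : V} (hx₀ : x₀ ≠ 0) {ε₀ ε₁ ε₂ ε₃ : F}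
    (h0 : c.val e₀ = e₀ + ε₀ • x₀) (h1 : c.val e₁ = e₁ + ε₁ • x₀) (h2 : c.val e₂ = e₂ + ε₂ • x₀)
    (h3 : c.val e₃ = e₃ + ε₃ • x₀) (hfix : c.val x₀ = x₀) (hne : ε₂ ≠ 0) :
    ∃ (φ : V →ₗ[F] F) (e : V), φ ≠ 0 ∧ e ≠ 0 ∧ IsIn M (fl φ e) := by
  have hnot : x₀ ∉ (⊥ : Submodule F V) := by simpa using hx₀
  obtain ⟨τ, -, hτ⟩ := exists_func (⊥ : Submodule F V) hnot (1 : F)
  set β : Module.End F V := c.val - 1 with hβ
  set φ : V →ₗ[F] F := τ.comp β with hφ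
  have hβ0 : β e₀ = ε₀ • x₀ := by simp [hβ, h0]
  have hβ1 : β e₁ = ε₁ • x₀ := by simp [hβ, h1]
  have hβ2 : β e₂ = ε₂ • x₀ := by simp [hβ, h2]
  have hβ3 : β e₃ = ε₃ • x₀ := by simp [hβ, h3]
  have hβx : ∀ x, β x = φ x • x₀ := by
    intro x
    obtain ⟨a₀, a₁, a₂, a₃, rfl⟩ := hcoord x
    simp only [hφ, LinearMap.comp_apply, map_add, map_smul, hβ0, hβ1, hβ2, hβ3, hτ, smul_eq_mul,
      mul_one, add_smul, smul_smul]
  have hφx : φ x₀ = 0 := by
    have : β x₀ = 0 := by simp [hβ, hfix]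
    simp [hφ, this]
  have hφe₂ : φ e₂ = ε₂ := by
    simp [hφ, hβ2, hτ]
  refine ⟨φ, x₀, ?_, hx₀, ?_, ?_⟩
  · intro h
    rw [h] at hφe₂
    exact hne hφe₂.symm
  · ext x
    simp [Module.End.mul_apply, hφx]
  · have : sqU (fl φ x₀) (by ext x; simp [Module.End.mul_apply, hφx]) = c := by
      apply Units.ext
      ext x
      have := hβx x
      simp only [hβ, LinearMap.sub_apply, Module.End.one_apply] at this
      simp only [sqU_val, LinearMap.add_apply, Module.End.one_apply, fl_apply, ← this]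
      abel
    rw [this]
    exact hc

end Words

variable {F K V : Type*} [Field F] [Field K] [Algebra F K] [AddCommGroup V] [Module F V]
  [Module K V] [IsScalarTower F K V]

namespace NF

variable {M : Subgroup (Module.End F V)ˣ} (N : NF F K V M)

variable (hG : Good F K M) (hno : ¬ HasTv M)

include N hG hno in
/-- **`F = F₂`, degree two**: a contradiction. -/
theorem false_of_two [FiniteDimensional F K] [FiniteDimensional K V] (hr2 : finrank F K = 2)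
    (hF2 : ∀ s : F, s = 0 ∨ s = 1) : False := by
  have h11 : (1 : F) + 1 = 0 := by
    rcases hF2 (1 + 1) with h | h
    · exact h
    · exfalso
      have : (1 : F) = 0 := by linear_combination h
      exact one_ne_zero this
  have hK11 : (1 : K) + 1 = 0 := by
    have := congrArg (algebraMap F K) h11
    simpa using this
  have hV2 : ∀ x : V, x + x = 0 := fun x => by
    have := congrArg (fun s : F => s • x) h11
    simpa [add_smul] using this
  -- `u² = u + 1`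
  have hu0 : N.u ≠ 0 := by
    intro h
    have := N.π_u
    rw [h, map_zero] at this
    exact zero_ne_one this
  have hu1 : N.u ≠ 1 := fun h => N.u_not ⟨1, by rw [map_one, h]⟩
  have hdec : ∀ t : K, ∃ δ : F, t = algebraMap F K δ + N.π t • N.u := by
    intro t
    have h1 : t - N.π t • N.u ∈ N.D := by
      rw [← N.π_ker]
      simp [N.π_u]
    obtain ⟨δ, hδ⟩ := N.mem_D_iff hr2 h1
    exact ⟨δ, by rw [hδ]; abel⟩
  have hu2 : N.u * N.u = N.u + 1 := by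
    obtain ⟨δ, hδ⟩ := hdec (N.u * N.u)
    rcases hF2 δ with rfl | rfl <;> rcases hF2 (N.π (N.u * N.u)) with h | h <;> rw [h] at hδ
    · exfalso
      simp only [map_zero, zero_smul, add_zero] at hδ
      exact hu0 (mul_self_eq_zero.mp hδ)
    · exfalso
      simp only [map_zero, one_smul, zero_add] at hδ
      apply hu1
      exact mul_left_cancel₀ hu0 (by rw [hδ, mul_one])
    · exfalso
      simp only [map_one, zero_smul, add_zero] at hδ
      apply hu1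
      have : (N.u + 1) * (N.u + 1) = 0 := by
        linear_combination hδ + N.u * hK11 + hK11
      have h2 := mul_self_eq_zero.mp this
      linear_combination h2 - hK11
    · simp only [map_one, one_smul] at hδ
      rw [hδ, add_comm]
  have hu10 : N.u + 1 ≠ 0 := by
    intro h
    apply hu1
    linear_combination h - hK11
  -- functionals
  obtain ⟨f, hf1, hf2⟩ := N.exists_f
  obtain ⟨f₁, hf₁1, hf₁2⟩ := N.exists_f₁
  -- coordinates
  have hcoord : ∀ x : V, ∃ a₀ a₁ a₂ a₃ : F,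
      x = a₀ • N.v₁ + a₁ • (N.u • N.v₁) + a₂ • N.v₂ + a₃ • (N.u • N.v₂) := by
    intro x
    obtain ⟨a, b, rfl⟩ := N.exists_coord_K hG hno x
    obtain ⟨δ, hδ⟩ := hdec a
    obtain ⟨δ', hδ'⟩ := hdec b
    refine ⟨δ, N.π a, δ', N.π b, ?_⟩
    conv_lhs => rw [hδ, hδ']
    simp only [add_smul, algebraMap_smul, smul_assoc]
    abel
  -- the norms
  have hnorm : ∀ a : K, a ≠ 0 → Algebra.norm F a = 1 := by
    intro a ha
    rcases hF2 (Algebra.norm F a) with h | h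
    · exact absurd h (Algebra.norm_ne_zero_iff.mpr ha)
    · exact h
  -- generators
  set H₁ := scaleU F f₁ N.v₁ N.u hf₁1 hu0 with hH₁
  set H₂ := scaleU F f N.v₂ N.u hf2 hu0 with hH₂
  set H₃ := scaleU F f N.v₂ (N.u + 1) hf2 hu10 with hH₃
  have hH₁M : H₁ ∈ M := hG.scale _ _ _ _ _ (hnorm _ hu0)
  have hH₂M : H₂ ∈ M := hG.scale _ _ _ _ _ (hnorm _ hu0)
  have hH₃M : H₃ ∈ M := hG.scale _ _ _ _ _ (hnorm _ hu10)
  have hT₁in := hG.trans f N.v₁ hf1
  have hT₂in := hG.trans f₁ N.v₂ hf₁2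
  set T₁ := sqU (kt F f N.v₁) hT₁in.sq with hT₁
  set T₂ := sqU (kt F f₁ N.v₂) hT₂in.sq with hT₂
  have hT₁M : T₁ ∈ M := hT₁in.mem
  have hT₂M : T₂ ∈ M := hT₂in.mem
  -- `K`-scalars
  have huuv : ∀ v : V, N.u • (N.u • v) = v + N.u • v := by
    intro v
    rw [smul_smul, hu2, add_smul, one_smul, add_comm]
  -- tables
  have hsub : ∀ a : K, ∀ x : V, (a - 1) • x = a • x - x := fun a x => by rw [sub_smul, one_smul]
  have H₁0 : H₁.val N.v₁ = N.u • N.v₁ := by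
    rw [hH₁, scaleU_apply, hf₁1, one_smul, hsub]; abel
  have H₁1 : H₁.val (N.u • N.v₁) = N.v₁ + N.u • N.v₁ := by
    rw [hH₁, scaleU_apply, LinearMap.map_smul, hf₁1, smul_eq_mul, mul_one, hsub, smul_sub, huuv]
    abel
  have H₁2 : H₁.val N.v₂ = N.v₂ := by
    rw [hH₁, scaleU_apply, hf₁2, zero_smul, add_zero]
  have H₁3 : H₁.val (N.u • N.v₂) = N.u • N.v₂ := by
    rw [hH₁, scaleU_apply, LinearMap.map_smul, hf₁2, smul_eq_mul, mul_zero, zero_smul, add_zero]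
  have H₂0 : H₂.val N.v₁ = N.v₁ := by
    rw [hH₂, scaleU_apply, hf1, zero_smul, add_zero]
  have H₂1 : H₂.val (N.u • N.v₁) = N.u • N.v₁ := by
    rw [hH₂, scaleU_apply, LinearMap.map_smul, hf1, smul_eq_mul, mul_zero, zero_smul, add_zero]
  have H₂2 : H₂.val N.v₂ = N.u • N.v₂ := by
    rw [hH₂, scaleU_apply, hf2, one_smul, hsub]; abel
  have H₂3 : H₂.val (N.u • N.v₂) = N.v₂ + N.u • N.v₂ := by
    rw [hH₂, scaleU_apply, LinearMap.map_smul, hf2, smul_eq_mul, mul_one, hsub, smul_sub, huuv]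
    abel
  have H₃0 : H₃.val N.v₁ = N.v₁ := by
    rw [hH₃, scaleU_apply, hf1, zero_smul, add_zero]
  have H₃1 : H₃.val (N.u • N.v₁) = N.u • N.v₁ := by
    rw [hH₃, scaleU_apply, LinearMap.map_smul, hf1, smul_eq_mul, mul_zero, zero_smul, add_zero]
  have H₃2 : H₃.val N.v₂ = N.v₂ + N.u • N.v₂ := by
    rw [hH₃, scaleU_apply, hf2, one_smul, add_sub_cancel_right, add_comm]
  have H₃3 : H₃.val (N.u • N.v₂) = N.v₂ := by
    rw [hH₃, scaleU_apply, LinearMap.map_smul, hf2, smul_eq_mul, mul_one, add_sub_cancel_right,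
      huuv, ← add_assoc, add_comm (N.u • N.v₂), add_assoc, hV2, add_zero]
  have T₁0 : T₁.val N.v₁ = N.v₁ := by simp [hT₁, hf1]
  have T₁1 : T₁.val (N.u • N.v₁) = N.u • N.v₁ := by simp [hT₁, hf1]
  have T₁2 : T₁.val N.v₂ = N.v₂ + N.v₁ := by simp [hT₁, hf2]
  have T₁3 : T₁.val (N.u • N.v₂) = N.u • N.v₂ + N.u • N.v₁ := by simp [hT₁, hf2]
  have T₂0 : T₂.val N.v₁ = N.v₁ + N.v₂ := by simp [hT₂, hf₁1]
  have T₂1 : T₂.val (N.u • N.v₁) = N.u • N.v₁ + N.u • N.v₂ := by simp [hT₂, hf₁1]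
  have T₂2 : T₂.val N.v₂ = N.v₂ := by simp [hT₂, hf₁2]
  have T₂3 : T₂.val (N.u • N.v₂) = N.u • N.v₂ := by simp [hT₂, hf₁2]
  -- the root elements
  obtain ⟨c₁, hc₁⟩ := N.exists_param N.v₁_mem
  obtain ⟨c₂, hc₂⟩ := N.exists_param N.v₂_mem
  have hc₁0 : c₁ ≠ 0 := N.param_ne hc₁ N.v₁_ne
  have hc₂0 : c₂ ≠ 0 := N.param_ne hc₂ N.v₂_ne
  have hvsum : N.v₁ + N.v₂ ≠ 0 := by
    intro h
    have := congrArg f h
    simp [hf1, hf2] at this
  have hc₃ : c₁ + c₂ ≠ 0 := by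
    intro h
    apply hvsum
    rw [← hc₁, ← hc₂, ← map_add, ← add_smul, h, zero_smul, map_zero]
  obtain ⟨α₁, γ₁, h1⟩ := N.coord2 hr2 (N.β_mem c₁ (N.u • N.v₂))
  obtain ⟨α₂, γ₂, h2⟩ := N.coord2 hr2 (N.β_mem c₂ (N.u • N.v₂))
  have hWnot : ∀ x, f x = N.u → x ∉ N.W := by
    intro x hx hW
    apply N.u_not
    rw [← hx]
    exact N.f_mem hf1 hf2 hW
  have hf3 : f (N.u • N.v₂) = N.u := by simp [hf2]
  have hf4 : f (N.u • N.v₂ - N.u • N.v₁) = N.u := by simp [hf1, hf2]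
  have hR₁u : N.β c₁ (N.u • N.v₁) = N.v₁ := by rw [N.β_u, hc₁]
  have hR₂u : N.β c₂ (N.u • N.v₁) = N.v₂ := by rw [N.β_u, hc₂]
  have hA : ¬ (α₁ = 0 ∧ γ₁ = 0) := by
    rintro ⟨rfl, rfl⟩
    refine hWnot _ hf3 (N.β_eq_zero hG hno hc₁0 ?_)
    rw [h1]; simp
  have hB : ¬ (α₁ = 1 ∧ γ₁ = 0) := by
    rintro ⟨rfl, rfl⟩
    refine hWnot _ hf4 (N.β_eq_zero hG hno hc₁0 ?_)
    rw [map_sub, h1, hR₁u]; simp
  have hC : ¬ (α₂ = 0 ∧ γ₂ = 0) := by
    rintro ⟨rfl, rfl⟩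
    refine hWnot _ hf3 (N.β_eq_zero hG hno hc₂0 ?_)
    rw [h2]; simp
  have hD : ¬ (α₂ = 0 ∧ γ₂ = 1) := by
    rintro ⟨rfl, rfl⟩
    refine hWnot _ hf4 (N.β_eq_zero hG hno hc₂0 ?_)
    rw [map_sub, h2, hR₂u]; simp
  have hγ₁ : γ₁ = 1 := by
    rcases hF2 γ₁ with h | h
    · exfalso
      rcases hF2 α₁ with h' | h'
      · exact hA ⟨h', h⟩
      · exact hB ⟨h', h⟩
    · exact h
  have hα₂ : α₂ = 1 := by
    rcases hF2 α₂ with h | h
    · exfalso
      rcases hF2 γ₂ with h' | h'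
      · exact hC ⟨h, h'⟩
      · exact hD ⟨h, h'⟩
    · exact h
  subst hγ₁ hα₂
  have hsum : ∀ x, N.β (c₁ + c₂) x = N.β c₁ x + N.β c₂ x := fun x => by rw [N.β_add]; rfl
  have hE : ¬ (α₁ = 1 ∧ γ₂ = 1) := by
    rintro ⟨rfl, rfl⟩
    refine hWnot _ hf3 (N.β_eq_zero hG hno hc₃ ?_)
    rw [hsum, h1, h2]
    simp only [one_smul]
    rw [add_add_add_comm, hV2, hV2, add_zero]
  have hG' : ¬ (α₁ = 0 ∧ γ₂ = 0) := by
    rintro ⟨rfl, rfl⟩
    refine hWnot _ hf4 (N.β_eq_zero hG hno hc₃ ?_)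
    rw [map_sub, hsum, hsum, h1, h2, hR₁u, hR₂u]
    simp only [one_smul, zero_smul, zero_add, add_zero]
    abel
  have hRkill : ∀ c, N.β c N.v₁ = 0 ∧ N.β c N.v₂ = 0 := fun c =>
    ⟨N.β_kill c N.v₁_mem, N.β_kill c N.v₂_mem⟩
  rcases hF2 α₁ with rfl | rfl
  · -- the case `𝔸₁`
    have hγ₂ : γ₂ = 1 := by
      rcases hF2 γ₂ with h | h
      · exact absurd ⟨rfl, h⟩ hG'
      · exact h
    subst hγ₂
    have hRin := N.β_isIn hG c₂
    set y := sqU (N.β c₂) hRin.sq with hy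
    have hyM : y ∈ M := hRin.mem
    have y0 : y.val N.v₁ = N.v₁ := by simp [hy, (hRkill c₂).1]
    have y1 : y.val (N.u • N.v₁) = N.u • N.v₁ + N.v₂ := by simp [hy, hR₂u]
    have y2 : y.val N.v₂ = N.v₂ := by simp [hy, (hRkill c₂).2]
    have y3 : y.val (N.u • N.v₂) = N.u • N.v₂ + (N.v₁ + N.v₂) := by
      simp only [hy, sqU_val, LinearMap.add_apply, Module.End.one_apply, h2, one_smul]
    set S := T₁ * T₂ * T₁ with hS
    have hSM : S ∈ M := M.mul_mem (M.mul_mem hT₁M hT₂M) hT₁M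
    have Sval : ∀ x, S.val x = T₁.val (T₂.val (T₁.val x)) := fun x => rfl
    have hcancel : ∀ a b : V, a + (b + a) = b := fun a b => by
      rw [add_comm b a, ← add_assoc, hV2, zero_add]
    have hcancel' : ∀ a b : V, a + b + a = b := fun a b => by
      rw [add_comm a b, add_assoc, hV2, add_zero]
    have S0 : S.val N.v₁ = N.v₂ := by
      rw [Sval, T₁0, T₂0, map_add, T₁0, T₁2, hcancel]
    have S1 : S.val (N.u • N.v₁) = N.u • N.v₂ := by
      rw [Sval, T₁1, T₂1, map_add, T₁1, T₁3, hcancel]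
    have S2 : S.val N.v₂ = N.v₁ := by
      rw [Sval, T₁2, map_add, T₂2, T₂0, hcancel, T₁0]
    have S3 : S.val (N.u • N.v₂) = N.u • N.v₁ := by
      rw [Sval, T₁3, map_add, T₂3, T₂1, hcancel, T₁1]
    set n := H₁ * H₂ * S with hn
    have hnM : n ∈ M := M.mul_mem (M.mul_mem hH₁M hH₂M) hSM
    have nval : ∀ x, n.val x = H₁.val (H₂.val (S.val x)) := fun x => rfl
    have n0 : n.val N.v₁ = N.u • N.v₂ := by rw [nval, S0, H₂2, H₁3]
    have n1 : n.val (N.u • N.v₁) = N.v₂ + N.u • N.v₂ := by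
      rw [nval, S1, H₂3, map_add, H₁2, H₁3]
    have n2 : n.val N.v₂ = N.u • N.v₁ := by rw [nval, S2, H₂0, H₁0]
    have n3 : n.val (N.u • N.v₂) = N.v₁ + N.u • N.v₁ := by rw [nval, S3, H₂1, H₁1]
    set m := H₁ * H₃ with hm
    have hmM : m ∈ M := M.mul_mem hH₁M hH₃M
    have mval : ∀ x, m.val x = H₁.val (H₃.val x) := fun x => rfl
    have m0 : m.val N.v₁ = N.u • N.v₁ := by rw [mval, H₃0, H₁0]
    have m1 : m.val (N.u • N.v₁) = N.v₁ + N.u • N.v₁ := by rw [mval, H₃1, H₁1]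
    have m2' : m.val N.v₂ = N.v₂ + N.u • N.v₂ := by rw [mval, H₃2, map_add, H₁2, H₁3]
    have m3 : m.val (N.u • N.v₂) = N.v₂ := by rw [mval, H₃3, H₁2]
    obtain ⟨w0, w1, w2, w3⟩ := word_A1 hV2 y0 y1 y2 y3 n0 n1 n2 n3 m0 m1 m2' m3
    set c := y * n * y * m with hc
    have hcM : c ∈ M := M.mul_mem (M.mul_mem (M.mul_mem hyM hnM) hyM) hmM
    have cval : ∀ x, c.val x = y.val (n.val (y.val (m.val x))) := fun x => rfl
    set x₀ := N.u • N.v₁ + N.v₂ + N.u • N.v₂ with hx₀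
    have hx₀0 : x₀ ≠ 0 := by
      intro h
      have := congrArg f₁ h
      simp [hx₀, hf₁1, hf₁2] at this
      exact hu0 this
    apply hno
    refine hasTv_of_word hcoord hcM hx₀0 (ε₀ := 1) (ε₁ := 0) (ε₂ := 1) (ε₃ := 1) ?_ ?_ ?_ ?_ ?_
      one_ne_zero
    · rw [cval, w0, one_smul]
    · rw [cval, w1, zero_smul, add_zero]
    · rw [cval, w2, one_smul]
    · rw [cval, w3, one_smul]
    · rw [hx₀, map_add, map_add, cval, cval, cval, w1, w2, w3, ← hx₀]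
      have : N.u • N.v₁ + (N.v₂ + x₀) + (N.u • N.v₂ + x₀) = x₀ + (x₀ + x₀) := by
        rw [hx₀]; abel
      rw [this, hV2, add_zero]
  · -- the case `𝔸₂`
    have hγ₂ : γ₂ = 0 := by
      rcases hF2 γ₂ with h | h
      · exact h
      · exact absurd ⟨rfl, h⟩ hE
    subst hγ₂
    have hRin := N.β_isIn hG c₁
    set y := sqU (N.β c₁) hRin.sq with hy
    have hyM : y ∈ M := hRin.mem
    have y0 : y.val N.v₁ = N.v₁ := by simp [hy, (hRkill c₁).1]
    have y1 : y.val (N.u • N.v₁) = N.u • N.v₁ + N.v₁ := by simp [hy, hR₁u]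
    have y2 : y.val N.v₂ = N.v₂ := by simp [hy, (hRkill c₁).2]
    have y3 : y.val (N.u • N.v₂) = N.u • N.v₂ + (N.v₁ + N.v₂) := by
      simp only [hy, sqU_val, LinearMap.add_apply, Module.End.one_apply, h1, one_smul]
    obtain ⟨w0, w1, w2, w3⟩ := word_A2 hV2 y0 y1 y2 y3 H₂0 H₂1 H₂2 H₂3
    set c := y * H₂ * y * H₂ with hc
    have hcM : c ∈ M := M.mul_mem (M.mul_mem (M.mul_mem hyM hH₂M) hyM) hH₂M
    have cval : ∀ x, c.val x = y.val (H₂.val (y.val (H₂.val x))) := fun x => rfl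
    apply hno
    refine hasTv_of_word hcoord hcM N.v₁_ne (ε₀ := 0) (ε₁ := 0) (ε₂ := 1) (ε₃ := 0) ?_ ?_ ?_ ?_ ?_
      one_ne_zero
    · rw [cval, w0, zero_smul, add_zero]
    · rw [cval, w1, zero_smul, add_zero]
    · rw [cval, w2, one_smul]
    · rw [cval, w3, zero_smul, add_zero]
    · rw [cval, w0]

include N in
/-- The normal form produces a transvection. -/
theorem hasTv [Finite F] [FiniteDimensional F K] [FiniteDimensional K V] [Algebra.IsSeparable F K]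
    (hG : Good F K M) (hr : (finrank F K).Prime) : HasTv M := by
  have : Finite K := Module.finite_of_finite F
  by_contra hno
  by_cases h2 : (2 : F) = 0
  · by_cases hr2 : finrank F K = 2
    · by_cases hs : ∃ s : F, s ≠ 0 ∧ s ≠ 1
      · obtain ⟨s, hs0, hs1⟩ := hs
        exact N.false_of_large hG hno hr2 h2 hs0 hs1
      · push Not at hs
        refine N.false_of_two hG hno hr2 fun s => ?_
        by_cases h0 : s = 0
        · exact Or.inl h0
        · exact Or.inr (hs s h0)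
    · have hr3 : 3 ≤ finrank F K := by
        have := hr.two_le
        omega
      have hodd : Odd (finrank F K) := hr.odd_of_ne_two hr2
      obtain ⟨k, hk⟩ := hodd
      refine hno (N.hasTv_of_odd hG hr hr3 ?_)
      rw [hk]
      push_cast
      rw [h2]
      simp
  · exact hno (N.hasTv_of_two_ne hG h2)

end NF

/-- **The core theorem**: a subgroup containing the `K`-linear maps of `Good`, and moving a
`K`-line off the `K`-lines, contains every `F`-transvection. -/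
theorem core [Finite F] [FiniteDimensional F K] [FiniteDimensional K V] [Algebra.IsSeparable F K]
    {M : Subgroup (Module.End F V)ˣ} (hG : Good F K M) (hr : (finrank F K).Prime)
    (hm : 2 ≤ finrank K V) {g : (Module.End F V)ˣ} (hg : g ∈ M) {v : V} (hv : v ≠ 0) {κ : K}
    (hκ : g.val (κ • v) ∉ kline F K (g.val v)) :
    ∀ (φ : V →ₗ[F] F) (x : V), φ x = 0 → IsIn M (fl φ x) := by
  have : Finite K := Module.finite_of_finite F
  have h1 := adj_start (K := K) hg hv hκ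
  have h2 := adj_final hr hG h1
  obtain ⟨N⟩ := exists_nf hr.two_le h2
  obtain ⟨φ, e, hφ, he, hin⟩ := N.hasTv hG hr
  exact all_flags hr.two_le hm hG hφ he hin

end Cfsg.Agent.Lib.Classical.Spread
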