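import Mathlib
import Cfsg.Prelude.Def_GeometricClasses
import Cfsg.Agent.Lib.Classical.Spread.Quad2
import Cfsg.Agent.Lib.Linalg.Transvection

/-!
# Transport of the core theorem to `GL(Fin n, F)`
-/

set_option autoImplicit false

open Matrix Module

namespace Cfsg.Agent.Lib.Classical.Spread

section Scalar
variable {K V : Type*} [Field K] [AddCommGroup V] [Module K V]

/-- An additive map with `τ x ∈ K x` for all `x` is a scalar, when `dim V ≥ 2`. -/
theorem scalar_of_line [FiniteDimensional K V] (hm : 2 ≤ finrank K V) {τ : V → V}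
    (hadd : ∀ x y, τ (x + y) = τ x + τ y) (h : ∀ x, τ x ∈ Submodule.span K {x}) :
    ∃ c : K, ∀ x, τ x = c • x := by
  have hval : ∀ x, ∃ c : K, τ x = c • x := fun x => by
    obtain ⟨c, hc⟩ := Submodule.mem_span_singleton.mp (h x)
    exact ⟨c, hc.symm⟩
  -- comparison of two independent vectors
  have hcomp : ∀ {x y : V} {a b : K}, x ≠ 0 → y ∉ Submodule.span K {x} → τ x = a • x → τ y = b • y →
      a = b := by
    intro x y a b hx hy ha hb
    obtain ⟨c, hc⟩ := hval (x + y)
    rw [hadd, ha, hb, smul_add] at hc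
    have h1 : (a - c) • x = (c - b) • y := by
      rw [sub_smul, sub_smul]
      linear_combination (norm := module) hc
    by_cases hcb : c - b = 0
    · rw [hcb, zero_smul] at h1
      have h2 : a - c = 0 := (smul_eq_zero.mp h1).resolve_right hx
      have e1 : a = c := sub_eq_zero.mp h2
      have e2 : c = b := sub_eq_zero.mp hcb
      rw [e1, e2]
    · exfalso
      apply hy
      apply Submodule.mem_span_singleton.mpr
      refine ⟨(c - b)⁻¹ * (a - c), ?_⟩
      rw [mul_smul, h1, smul_smul, inv_mul_cancel₀ hcb, one_smul]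
  obtain ⟨x₀, hx₀⟩ : ∃ x : V, x ≠ 0 := by
    have : Nontrivial V := Module.nontrivial_of_finrank_pos (R := K) (by omega)
    exact exists_ne 0
  obtain ⟨c, hc⟩ := hval x₀
  refine ⟨c, fun y => ?_⟩
  by_cases hy : y ∈ Submodule.span K {x₀}
  · by_cases hy0 : y = 0
    · subst hy0
      obtain ⟨d, hd⟩ := hval 0
      simpa using hd
    · obtain ⟨z, hz⟩ := exists_notMem_span K hm x₀
      obtain ⟨b, hb⟩ := hval z
      have h1 : c = b := hcomp hx₀ hz hc hb
      obtain ⟨d, hd⟩ := hval y
      have hz' : z ∉ Submodule.span K {y} := by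
        intro hmem
        obtain ⟨t, ht⟩ := Submodule.mem_span_singleton.mp hy
        obtain ⟨t', ht'⟩ := Submodule.mem_span_singleton.mp hmem
        apply hz
        apply Submodule.mem_span_singleton.mpr
        exact ⟨t' * t, by rw [mul_smul, ht, ht']⟩
      have h2 : d = b := hcomp hy0 hz' hd hb
      rw [hd, h1, h2]
  · obtain ⟨b, hb⟩ := hval y
    have h1 : c = b := hcomp hx₀ hy hc hb
    rw [hb, h1]

end Scalar

section Transfer
variable {F : Type*} [Field F] {n : ℕ}

/-- The passage from matrices to endomorphisms. -/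
noncomputable def toU : GL (Fin n) F ≃* (Module.End F (Fin n → F))ˣ :=
  Units.mapEquiv
    (Matrix.toLinAlgEquiv' : Matrix (Fin n) (Fin n) F ≃ₐ[F]
      Module.End F (Fin n → F)).toRingEquiv.toMulEquiv

theorem toU_apply (g : GL (Fin n) F) (x : Fin n → F) :
    ((toU g : (Module.End F (Fin n → F))ˣ) : Module.End F (Fin n → F)) x
      = (g : Matrix (Fin n) (Fin n) F).mulVec x := rfl

theorem toU_inv_apply (g : GL (Fin n) F) (x : Fin n → F) :
    (((toU g)⁻¹ : (Module.End F (Fin n → F))ˣ) : Module.End F (Fin n → F)) x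
      = ((g⁻¹ : GL (Fin n) F) : Matrix (Fin n) (Fin n) F).mulVec x := by
  rw [← map_inv]; rfl

theorem mem_SL_iff (g : GL (Fin n) F) :
    g ∈ Cfsg.Geo.specialLinear (Fin n) F ↔
      LinearMap.det ((toU g : (Module.End F (Fin n → F))ˣ) : Module.End F (Fin n → F)) = 1 := by
  have h : LinearMap.det ((toU g : (Module.End F (Fin n → F))ˣ) : Module.End F (Fin n → F))
      = (g : Matrix (Fin n) (Fin n) F).det := LinearMap.det_toLin' _
  rw [h, Cfsg.Geo.specialLinear, MonoidHom.mem_ker, Units.ext_iff]
  simp [Matrix.GeneralLinearGroup.val_det_apply]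

variable {K' : Type*} [Field K'] [Algebra F K'] [Module K' (Fin n → F)]
  [IsScalarTower F K' (Fin n → F)] (ι : K' →ₐ[F] Matrix (Fin n) (Fin n) F)

theorem mem_N_of_comm {g : GL (Fin n) F}
    (h : ∀ a : K', (g : Matrix (Fin n) (Fin n) F) * ι a = ι a * (g : Matrix (Fin n) (Fin n) F)) :
    g ∈ Cfsg.Geo.subalgebraNormalizer ι.range := by
  intro k
  have h1 : (g : Matrix (Fin n) (Fin n) F) * ((g⁻¹ : GL (Fin n) F) : Matrix (Fin n) (Fin n) F) = 1 :=
    by rw [← Units.val_mul, mul_inv_cancel, Units.val_one]
  have h2 : ((g⁻¹ : GL (Fin n) F) : Matrix (Fin n) (Fin n) F) * (g : Matrix (Fin n) (Fin n) F) = 1 :=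
    by rw [← Units.val_mul, inv_mul_cancel, Units.val_one]
  constructor
  · rintro ⟨a, rfl⟩
    refine ⟨a, ?_⟩
    change ι a = (g : Matrix (Fin n) (Fin n) F) * ι a * ((g⁻¹ : GL (Fin n) F) : Matrix (Fin n) (Fin n) F)
    rw [h a, mul_assoc, h1, mul_one]
  · rintro ⟨a, ha⟩
    refine ⟨a, ?_⟩
    change ι a = k
    change ι a = _ at ha
    have h3 : (g : Matrix (Fin n) (Fin n) F) * k = ι a * (g : Matrix (Fin n) (Fin n) F) := by
      rw [ha, mul_assoc, h2, mul_one]
    have h4 : (g : Matrix (Fin n) (Fin n) F) * k = (g : Matrix (Fin n) (Fin n) F) * ι a := by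
      rw [h3, h a]
    have := congrArg (fun m => ((g⁻¹ : GL (Fin n) F) : Matrix (Fin n) (Fin n) F) * m) h4
    simpa [← mul_assoc, h2] using this.symm

variable {ι}

theorem mem_N_of_linear (hι : ∀ (k : K') (x : Fin n → F), k • x = (ι k).mulVec x) {g : GL (Fin n) F}
    (h : ∀ (a : K') (x : Fin n → F),
      ((toU g : (Module.End F (Fin n → F))ˣ) : Module.End F (Fin n → F)) (a • x)
        = a • ((toU g : (Module.End F (Fin n → F))ˣ) : Module.End F (Fin n → F)) x) :
    g ∈ Cfsg.Geo.subalgebraNormalizer ι.range := by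
  apply mem_N_of_comm
  intro a
  apply Matrix.toLin'.injective
  apply LinearMap.ext
  intro x
  have := h a x
  rw [toU_apply, toU_apply, hι, hι] at this
  simpa only [Matrix.toLin'_apply, ← Matrix.mulVec_mulVec] using this

/-- An element of the normaliser maps `K`-lines to `K`-lines. -/
theorem line_of_mem_N (hι : ∀ (k : K') (x : Fin n → F), k • x = (ι k).mulVec x) {g : GL (Fin n) F}
    (hg : g ∈ Cfsg.Geo.subalgebraNormalizer ι.range) (κ : K') (x : Fin n → F) :
    ((toU g : (Module.End F (Fin n → F))ˣ) : Module.End F (Fin n → F)) (κ • x)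
      ∈ kline F K' (((toU g : (Module.End F (Fin n → F))ˣ) : Module.End F (Fin n → F)) x) := by
  obtain ⟨κ', hκ'⟩ := (hg (ι κ)).mp ⟨κ, rfl⟩
  have hκ'' : ι κ' = (g : Matrix (Fin n) (Fin n) F) * ι κ *
      ((g⁻¹ : GL (Fin n) F) : Matrix (Fin n) (Fin n) F) := hκ'
  have h2 : ((g⁻¹ : GL (Fin n) F) : Matrix (Fin n) (Fin n) F) * (g : Matrix (Fin n) (Fin n) F) = 1 :=
    by rw [← Units.val_mul, inv_mul_cancel, Units.val_one]
  have h3 : (g : Matrix (Fin n) (Fin n) F) * ι κ = ι κ' * (g : Matrix (Fin n) (Fin n) F) := by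
    rw [hκ'', mul_assoc _ _ (g : Matrix (Fin n) (Fin n) F), h2, mul_one]
  apply mem_kline.mpr
  refine ⟨κ', ?_⟩
  rw [toU_apply, toU_apply, hι, hι, Matrix.mulVec_mulVec, Matrix.mulVec_mulVec, h3]

/-- A map sending `K`-lines to `K`-lines lies in the normaliser. -/
theorem mem_N_of_line [FiniteDimensional F K'] [FiniteDimensional K' (Fin n → F)] [Finite F]
    (hι : ∀ (k : K') (x : Fin n → F), k • x = (ι k).mulVec x) (hm : 2 ≤ finrank K' (Fin n → F))
    {g : GL (Fin n) F}
    (h : ∀ (κ : K') (v : Fin n → F),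
      ((toU g : (Module.End F (Fin n → F))ˣ) : Module.End F (Fin n → F)) (κ • v)
        ∈ kline F K' (((toU g : (Module.End F (Fin n → F))ˣ) : Module.End F (Fin n → F)) v)) :
    g ∈ Cfsg.Geo.subalgebraNormalizer ι.range := by
  have hfin : Finite K' := Module.finite_of_finite F
  set u := toU g with hu
  have h1 : (g : Matrix (Fin n) (Fin n) F) * ((g⁻¹ : GL (Fin n) F) : Matrix (Fin n) (Fin n) F) = 1 :=
    by rw [← Units.val_mul, mul_inv_cancel, Units.val_one]
  have h2 : ((g⁻¹ : GL (Fin n) F) : Matrix (Fin n) (Fin n) F) * (g : Matrix (Fin n) (Fin n) F) = 1 :=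
    by rw [← Units.val_mul, inv_mul_cancel, Units.val_one]
  -- conjugation maps `K` into `K`
  have hconj : ∀ κ : K', ∃ c : K', (g : Matrix (Fin n) (Fin n) F) * ι κ *
      ((g⁻¹ : GL (Fin n) F) : Matrix (Fin n) (Fin n) F) = ι c := by
    intro κ
    obtain ⟨c, hc⟩ := scalar_of_line (K := K') hm
      (τ := fun x => u.val (κ • (u⁻¹ : (Module.End F (Fin n → F))ˣ).val x))
      (fun x y => by simp only [map_add, smul_add])
      (fun x => by
        have := h κ ((u⁻¹ : (Module.End F (Fin n → F))ˣ).val x)
        rw [apply_inv_apply] at this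
        exact this)
    refine ⟨c, ?_⟩
    apply Matrix.toLin'.injective
    apply LinearMap.ext
    intro x
    have h3 := hc x
    simp only [hu, toU_apply, toU_inv_apply, hι] at h3
    simpa only [Matrix.toLin'_apply, ← Matrix.mulVec_mulVec] using h3
  choose c hc using hconj
  have hιinj : Function.Injective ι := by
    intro a b hab
    have : Nontrivial (Fin n → F) := Module.nontrivial_of_finrank_pos (R := K') (by omega)
    obtain ⟨x, hx⟩ : ∃ x : Fin n → F, x ≠ 0 := exists_ne 0
    have : a • x = b • x := by rw [hι, hι, hab]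
    exact smul_left_injective K' hx this
  have hcinj : Function.Injective c := by
    intro a b hab
    apply hιinj
    have e1 := hc a
    have e2 := hc b
    rw [hab, ← e2] at e1
    have e3 := congrArg
      (fun m => ((g⁻¹ : GL (Fin n) F) : Matrix (Fin n) (Fin n) F) * m * (g : Matrix (Fin n) (Fin n) F)) e1
    simpa only [mul_assoc, h2, mul_one, ← mul_assoc (g⁻¹ : GL (Fin n) F).val (g : Matrix (Fin n) (Fin n) F),
      one_mul] using e3
  have hcsurj : Function.Surjective c := Finite.injective_iff_surjective.mp hcinj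
  intro k
  constructor
  · rintro ⟨a, rfl⟩
    exact ⟨c a, (hc a).symm⟩
  · rintro ⟨a, ha⟩
    obtain ⟨b, rfl⟩ := hcsurj a
    have ha' : ι (c b) = (g : Matrix (Fin n) (Fin n) F) * k *
        ((g⁻¹ : GL (Fin n) F) : Matrix (Fin n) (Fin n) F) := ha
    refine ⟨b, ?_⟩
    change ι b = k
    rw [← hc b] at ha'
    have e3 := congrArg
      (fun m => ((g⁻¹ : GL (Fin n) F) : Matrix (Fin n) (Fin n) F) * m * (g : Matrix (Fin n) (Fin n) F)) ha'
    simpa only [mul_assoc, h2, mul_one, ← mul_assoc (g⁻¹ : GL (Fin n) F).val (g : Matrix (Fin n) (Fin n) F),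
      one_mul] using e3

end Transfer

section Good
variable {F K V : Type*} [Field F] [Field K] [Algebra F K] [AddCommGroup V] [Module F V]
  [Module K V] [IsScalarTower F K V]

theorem det_one_add_kt [FiniteDimensional F K] [FiniteDimensional K V] (f : V →ₗ[K] K) (w : V) :
    LinearMap.det (1 + kt F f w : Module.End F V) = Algebra.norm F (1 + f w) := by
  have h : (1 + kt F f w : Module.End F V)
      = (LinearMap.transvection (f : Module.Dual K V) w).restrictScalars F := by
    ext x
    simp [LinearMap.transvection.apply]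
  rw [h, LinearMap.det_restrictScalars, LinearMap.transvection.det]

theorem det_scaleU [FiniteDimensional F K] [FiniteDimensional K V] (f : V →ₗ[K] K) (v : V) (a : K)
    (hv : f v = 1) (ha : a ≠ 0) :
    LinearMap.det ((scaleU F f v a hv ha : (Module.End F V)ˣ) : Module.End F V)
      = Algebra.norm F a := by
  change LinearMap.det (1 + kt F f ((a - 1) • v) : Module.End F V) = _
  rw [det_one_add_kt, map_smul, hv, smul_eq_mul, mul_one, add_sub_cancel]

end Good

section Transfer2
variable {F : Type*} [Field F] {n : ℕ} {K' : Type*} [Field K'] [Algebra F K']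
  [Module K' (Fin n → F)] [IsScalarTower F K' (Fin n → F)] {ι : K' →ₐ[F] Matrix (Fin n) (Fin n) F}

open Cfsg.Geo

theorem lin_mem (hι : ∀ (k : K') (x : Fin n → F), k • x = (ι k).mulVec x)
    {M : Subgroup (GL (Fin n) F)}
    (hM : subalgebraNormalizer ι.range ⊓ specialLinear (Fin n) F ≤ M)
    (u : (Module.End F (Fin n → F))ˣ)
    (hlin : ∀ (a : K') (x : Fin n → F), u.val (a • x) = a • u.val x)
    (hdet : LinearMap.det u.val = 1) : u ∈ M.map toU.toMonoidHom := by
  rw [Subgroup.mem_map_equiv]
  have hu : toU (toU.symm u) = u := MulEquiv.apply_symm_apply _ _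
  apply hM
  constructor
  · apply mem_N_of_linear hι
    rw [hu]
    exact hlin
  · change toU.symm u ∈ specialLinear (Fin n) F
    rw [mem_SL_iff, hu]
    exact hdet

theorem good_of_le [FiniteDimensional F K'] [FiniteDimensional K' (Fin n → F)]
    (hι : ∀ (k : K') (x : Fin n → F), k • x = (ι k).mulVec x)
    {M : Subgroup (GL (Fin n) F)}
    (hM : subalgebraNormalizer ι.range ⊓ specialLinear (Fin n) F ≤ M) :
    Good F K' (M.map toU.toMonoidHom) := by
  refine ⟨?_, ?_, ?_⟩
  · intro f w hw
    have hs : (kt F f w) * (kt F f w) = 0 := by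
      ext x
      simp [Module.End.mul_apply, hw]
    refine ⟨hs, lin_mem hι hM _ ?_ ?_⟩
    · intro a x
      simp [smul_add, smul_smul]
    · change LinearMap.det (1 + kt F f w : Module.End F (Fin n → F)) = 1
      rw [det_one_add_kt, hw, add_zero, map_one]
  · intro f v a hv ha hN
    refine lin_mem hι hM _ ?_ ?_
    · intro b x
      simp only [scaleU_apply, map_smul, smul_add, smul_eq_mul, mul_smul]
    · rw [det_scaleU, hN]
  · intro f₁ f₂ v₁ v₂ s h₁ h₂ h12 h21 hs hs'
    refine lin_mem hι hM _ ?_ ?_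
    · intro b x
      simp only [Units.val_mul, Module.End.mul_apply, scaleU_apply, map_smul, map_add, smul_add,
        smul_eq_mul, mul_smul]
    · rw [Units.val_mul, map_mul, det_scaleU, det_scaleU, ← map_mul, ← map_mul]
      have hs0 : s ≠ 0 := by
        rintro rfl
        simp at hs
      rw [mul_inv_cancel₀ hs0, map_one, map_one]

/-- From all `F`-transvections to `SL`. -/
theorem sl_le_of_flags {M : Subgroup (GL (Fin n) F)}
    (h : ∀ (φ : (Fin n → F) →ₗ[F] F) (x : Fin n → F), φ x = 0 →
      IsIn (M.map toU.toMonoidHom) (fl φ x)) : specialLinear (Fin n) F ≤ M := by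
  intro g hg
  have hgdet : (g : Matrix (Fin n) (Fin n) F).det = 1 := by
    have := (mem_SL_iff g).mp hg
    rwa [show LinearMap.det ((toU g : (Module.End F (Fin n → F))ˣ) : Module.End F (Fin n → F))
      = (g : Matrix (Fin n) (Fin n) F).det from LinearMap.det_toLin' _] at this
  have key : ∀ A : SpecialLinearGroup (Fin n) F, SpecialLinearGroup.toGL A ∈ M := by
    refine Cfsg.Agent.Lib.Linalg.Transvection.sl_transvection_induction _ (by simp) ?_
      (fun A B hA hB => by rw [map_mul]; exact M.mul_mem hA hB)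
    intro i j hij a
    set φ : (Fin n → F) →ₗ[F] F := a • LinearMap.proj j with hφ
    have hφx : φ (Pi.single i 1) = 0 := by
      simp [hφ, Pi.single_apply, hij.symm]
    have hin := h φ (Pi.single i 1) hφx
    have hmem := hin.mem
    rw [Subgroup.mem_map_equiv] at hmem
    convert hmem using 1
    rw [MulEquiv.eq_symm_apply]
    apply Units.ext
    apply LinearMap.ext
    intro x
    rw [toU_apply]
    change (SpecialLinearGroup.transvection hij a : Matrix (Fin n) (Fin n) F).mulVec x = _
    rw [SpecialLinearGroup.transvection_coe, Matrix.add_mulVec, Matrix.one_mulVec,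
      Matrix.single_mulVec_eq]
    simp [hφ, Pi.single_apply, smul_eq_mul]
  have := key ⟨(g : Matrix (Fin n) (Fin n) F), hgdet⟩
  convert this using 1
  apply Units.ext
  rfl

/-- Not all of `SL` normalises. -/
theorem exists_not_N [Finite F] [FiniteDimensional F K'] [FiniteDimensional K' (Fin n → F)]
    (hι : ∀ (k : K') (x : Fin n → F), k • x = (ι k).mulVec x)
    (hr : 2 ≤ finrank F K') (hm : 2 ≤ finrank K' (Fin n → F)) :
    ∃ g ∈ specialLinear (Fin n) F, g ∉ subalgebraNormalizer ι.range := by
  have hV : Nontrivial (Fin n → F) := Module.nontrivial_of_finrank_pos (R := K') (by omega)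
  obtain ⟨v, hv⟩ : ∃ v : Fin n → F, v ≠ 0 := exists_ne 0
  obtain ⟨k, hk⟩ : ∃ k : K', k ∉ (algebraMap F K').range := by
    by_contra h
    push Not at h
    have hs : Function.Surjective (algebraMap F K') := fun x => h x
    have e := (AlgEquiv.ofBijective (Algebra.ofId F K') ⟨(algebraMap F K').injective, hs⟩)
    have := e.toLinearEquiv.finrank_eq
    simp at this
    omega
  obtain ⟨x, hx⟩ := exists_notMem_span K' hm v
  have hkv : k • v ∉ Submodule.span F {v, x} := by
    intro hmem
    obtain ⟨s, s', hss⟩ := Submodule.mem_span_pair.mp hmem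
    by_cases hs' : s' = 0
    · subst hs'
      rw [zero_smul, add_zero] at hss
      have h2 : (algebraMap F K' s) • v = k • v := by rw [algebraMap_smul]; exact hss
      exact hk ⟨s, smul_left_injective K' hv h2⟩
    · apply hx
      apply Submodule.mem_span_singleton.mpr
      refine ⟨(algebraMap F K' s')⁻¹ * (k - algebraMap F K' s), ?_⟩
      have hne : algebraMap F K' s' ≠ 0 := by simpa using hs'
      have h3 : (k - algebraMap F K' s) • v = (algebraMap F K' s') • x := by
        rw [sub_smul, algebraMap_smul, algebraMap_smul, ← hss]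
        abel
      rw [mul_smul, h3, smul_smul, inv_mul_cancel₀ hne, one_smul]
  obtain ⟨φ, hφ, hφk⟩ := exists_func _ hkv (1 : F)
  have hφv : φ v = 0 := hφ v (Submodule.subset_span (by simp))
  have hφx : φ x = 0 := hφ x (Submodule.subset_span (by simp))
  have hs : fl φ x * fl φ x = 0 := by
    ext y
    simp [Module.End.mul_apply, hφx]
  set u := sqU (fl φ x) hs with hu
  have huval : ∀ y, u.val y = y + φ y • x := fun y => by simp [hu]
  have hutoU : toU (toU.symm u) = u := MulEquiv.apply_symm_apply _ _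
  refine ⟨toU.symm u, ?_, ?_⟩
  · rw [mem_SL_iff, hutoU]
    have h1 : u.val = LinearMap.transvection (φ : Module.Dual F (Fin n → F)) x :=
      LinearMap.ext fun y => huval y
    rw [h1, LinearMap.transvection.det, hφx, add_zero]
  · intro hN
    have h1 := line_of_mem_N hι hN k v
    rw [hutoU, huval, huval, hφv, hφk, zero_smul, add_zero, one_smul] at h1
    apply hx
    have h2 := (kline F K' v).sub_mem h1 (smul_mem_kline v k)
    rw [add_sub_cancel_left] at h2
    exact h2

/-- `N · SL = GL`. -/
theorem exists_N_mul_SL [Finite F] [FiniteDimensional F K'] [FiniteDimensional K' (Fin n → F)]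
    (hι : ∀ (k : K') (x : Fin n → F), k • x = (ι k).mulVec x)
    (hm : 2 ≤ finrank K' (Fin n → F)) (h : GL (Fin n) F) :
    ∃ d ∈ subalgebraNormalizer ι.range, d⁻¹ * h ∈ specialLinear (Fin n) F := by
  have hV : Nontrivial (Fin n → F) := Module.nontrivial_of_finrank_pos (R := K') (by omega)
  obtain ⟨v, hv⟩ : ∃ v : Fin n → F, v ≠ 0 := exists_ne 0
  have hv' : v ∉ (⊥ : Submodule K' (Fin n → F)) := by simpa using hv
  obtain ⟨f, -, hf⟩ := exists_func _ hv' (1 : K')
  have hfin : Finite K' := Module.finite_of_finite F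
  obtain ⟨a, ha⟩ := FiniteField.norm_surjective F K' (h : Matrix (Fin n) (Fin n) F).det
  have hdetne : (h : Matrix (Fin n) (Fin n) F).det ≠ 0 := by
    have := (Matrix.isUnit_iff_isUnit_det _).mp h.isUnit
    exact this.ne_zero
  have ha0 : a ≠ 0 := by
    rintro rfl
    rw [Algebra.norm_zero] at ha
    exact hdetne ha.symm
  set u := scaleU F f v a hf ha0 with hu
  have hutoU : toU (toU.symm u) = u := MulEquiv.apply_symm_apply _ _
  refine ⟨toU.symm u, ?_, ?_⟩
  · apply mem_N_of_linear hι
    rw [hutoU]
    intro b x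
    simp only [hu, scaleU_apply, map_smul, smul_add, smul_eq_mul, mul_smul]
  · have hdet : (toU.symm u : GL (Fin n) F).val.det = (h : Matrix (Fin n) (Fin n) F).det := by
      have h1 : LinearMap.det ((toU (toU.symm u) : (Module.End F (Fin n → F))ˣ) :
          Module.End F (Fin n → F)) = ((toU.symm u : GL (Fin n) F) : Matrix (Fin n) (Fin n) F).det :=
        LinearMap.det_toLin' _
      rw [← h1, hutoU, hu, det_scaleU, ha]
    change _ ∈ (Matrix.GeneralLinearGroup.det : GL (Fin n) F →* Fˣ).ker
    rw [MonoidHom.mem_ker, map_mul, map_inv, inv_mul_eq_one]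
    apply Units.ext
    simp only [Matrix.GeneralLinearGroup.val_det_apply]
    exact hdet

/-- **The abstract main theorem.** -/
theorem main_abs [Finite F] [FiniteDimensional F K'] [FiniteDimensional K' (Fin n → F)]
    [Algebra.IsSeparable F K'] (hι : ∀ (k : K') (x : Fin n → F), k • x = (ι k).mulVec x)
    (hr : (finrank F K').Prime) (hm : 2 ≤ finrank K' (Fin n → F)) :
    IsCoatom (subalgebraNormalizer ι.range) ∧
      IsMaximalIn (specialLinear (Fin n) F)
        (subalgebraNormalizer ι.range ⊓ specialLinear (Fin n) F) := by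
  have key : ∀ M : Subgroup (GL (Fin n) F),
      subalgebraNormalizer ι.range ⊓ specialLinear (Fin n) F ≤ M →
      ¬ M ≤ subalgebraNormalizer ι.range → specialLinear (Fin n) F ≤ M := by
    intro M hM hle
    obtain ⟨g, hg, hgN⟩ := SetLike.not_le_iff_exists.mp hle
    have hline : ∃ (κ : K') (v : Fin n → F),
        ((toU g : (Module.End F (Fin n → F))ˣ) : Module.End F (Fin n → F)) (κ • v)
          ∉ kline F K' (((toU g : (Module.End F (Fin n → F))ˣ) : Module.End F (Fin n → F)) v) := by
      by_contra hc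
      push Not at hc
      exact hgN (mem_N_of_line hι hm hc)
    obtain ⟨κ, v, hκ⟩ := hline
    have hv : v ≠ 0 := by
      rintro rfl
      apply hκ
      simp only [smul_zero, map_zero]
      exact Submodule.zero_mem _
    have hgM : toU g ∈ M.map toU.toMonoidHom := Subgroup.mem_map_of_mem _ hg
    exact sl_le_of_flags (core (good_of_le hι hM) hr hm hgM hv hκ)
  obtain ⟨g₀, hg₀, hg₀N⟩ := exists_not_N hι hr.two_le hm
  constructor
  · refine ⟨?_, ?_⟩
    · intro h
      apply hg₀N
      rw [h]
      exact Subgroup.mem_top _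
    · intro M hM
      have hnot : ¬ M ≤ subalgebraNormalizer ι.range := not_le_of_gt hM
      have hSL := key M (inf_le_left.trans hM.le) hnot
      rw [eq_top_iff]
      intro h _
      obtain ⟨d, hd, hd2⟩ := exists_N_mul_SL hι hm h
      have := M.mul_mem (hM.le hd) (hSL hd2)
      simpa using this
  · refine ⟨?_, ?_⟩
    · refine lt_of_le_of_ne inf_le_right ?_
      intro h
      apply hg₀N
      have : g₀ ∈ subalgebraNormalizer ι.range ⊓ specialLinear (Fin n) F := by
        rw [h]; exact hg₀
      exact this.1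
    · intro M hM hMS
      by_cases hle : M ≤ subalgebraNormalizer ι.range
      · left
        exact le_antisymm (le_inf hle hMS) hM
      · right
        exact le_antisymm hMS (key M hM hle)

end Transfer2

end Cfsg.Agent.Lib.Classical.Spread
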